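import Mathlib

set_option autoImplicit false

namespace H48.Agl

universe u v

open MulAction

theorem a4_class : ∀ g : alternatingGroup (Fin 4), g ≠ 1 →
    3 ≤ (Finset.univ.image (fun y : alternatingGroup (Fin 4) => y * g * y⁻¹)).card := by
  decide +kernel

theorem a4_three : (Finset.univ.filter (fun g : alternatingGroup (Fin 4) => g ^ 3 = 1)).card = 9 := by
  decide +kernel

/-- normal subgroups of `A₄` -/
theorem a4_normal (N : Subgroup (alternatingGroup (Fin 4))) (hN : N.Normal) :
    Nat.card N = 1 ∨ Nat.card N = 4 ∨ Nat.card N = 12 := by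
  classical
  have h12 : Nat.card (alternatingGroup (Fin 4)) = 12 := by
    rw [Nat.card_eq_fintype_card]; decide +kernel
  have hd : Nat.card N ∣ 12 := h12 ▸ Subgroup.card_subgroup_dvd_card N
  rcases Subgroup.bot_or_exists_ne_one N with hb | ⟨g, hg, hg1⟩
  · left; rw [hb]; simp
  right
  have h4 : 4 ≤ Nat.card N := by
    have h3 := a4_class g hg1
    have hsub : insert 1 (Finset.univ.image (fun y : alternatingGroup (Fin 4) => y * g * y⁻¹)) ⊆
        Finset.univ.filter (fun x => x ∈ N) := by
      intro x hx
      rw [Finset.mem_insert, Finset.mem_image] at hx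
      rw [Finset.mem_filter]
      refine ⟨Finset.mem_univ _, ?_⟩
      rcases hx with rfl | ⟨y, -, rfl⟩
      · exact one_mem _
      · exact hN.conj_mem g hg y
    have h1 : (1 : alternatingGroup (Fin 4)) ∉ Finset.univ.image (fun y : alternatingGroup (Fin 4) => y * g * y⁻¹) := by
      rw [Finset.mem_image]
      rintro ⟨y, -, hy⟩
      apply hg1
      rw [mul_inv_eq_one] at hy
      exact mul_eq_left.1 hy
    have := Finset.card_le_card hsub
    rw [Finset.card_insert_of_notMem h1] at this
    have hc : (Finset.univ.filter (fun x => x ∈ N)).card = Nat.card N := by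
      rw [Nat.card_eq_fintype_card, Fintype.card_subtype]
    omega
  have h6 : Nat.card N ≠ 6 := by
    intro h6
    have hi : N.index = 2 := by
      have := N.card_mul_index
      rw [h6, h12] at this; omega
    have hsub : Finset.univ.filter (fun g : alternatingGroup (Fin 4) => g ^ 3 = 1) ⊆
        Finset.univ.filter (fun x => x ∈ N) := by
      intro x hx
      rw [Finset.mem_filter] at hx ⊢
      refine ⟨Finset.mem_univ _, ?_⟩
      have h := Subgroup.sq_mem_of_index_two hi (x ^ 2)
      have : (x ^ 2) ^ 2 = x := by
        rw [← pow_mul]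
        calc x ^ (2 * 2) = x ^ 3 * x := by group
          _ = x := by rw [hx.2, one_mul]
      rwa [this] at h
    have := Finset.card_le_card hsub
    rw [a4_three] at this
    have hc : (Finset.univ.filter (fun x => x ∈ N)).card = Nat.card N := by
      rw [Nat.card_eq_fintype_card, Fintype.card_subtype]
    omega
  have hle : Nat.card N ≤ 12 := Nat.le_of_dvd (by norm_num) hd
  interval_cases hk : Nat.card N <;> first | omega | (exfalso; revert hd; decide) 

theorem normal_of_iso {K : Type u} [Group K] (e : K ≃* alternatingGroup (Fin 4)) (N : Subgroup K) (hN : N.Normal) :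
    Nat.card N = 1 ∨ Nat.card N = 4 ∨ Nat.card N = 12 := by
  have := a4_normal (N.map e.toMonoidHom) (hN.map e.toMonoidHom e.surjective)
  have hc : Nat.card (N.map e.toMonoidHom) = Nat.card N :=
    (Nat.card_congr (N.equivMapOfInjective e.toMonoidHom e.injective).toEquiv).symm
  rwa [hc] at this

end H48.Agl
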