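import Cfsg.Agent.Lib.H48.Agl1

set_option autoImplicit false
set_option linter.all false

namespace H48.Agl

universe u v

open MulAction

/-- a group of order 180 acting on a group of order 16, transitively on the non-zero elements, with stabiliser `A₄` -/
structure Cfg (A : Type v) (H : Type u) [AddCommGroup A] [Group H] [DistribMulAction H A] : Prop where
  cardA : Nat.card A = 16
  cardH : Nat.card H = 180
  faith : ∀ h : H, (∀ w : A, h • w = w) → h = 1
  trans : ∀ x y : A, x ≠ 0 → y ≠ 0 → ∃ h : H, h • x = y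
  stab : ∃ v : A, v ≠ 0 ∧ Nonempty (stabilizer H v ≃* alternatingGroup (Fin 4))

variable {A : Type v} {H : Type u} [AddCommGroup A] [Group H] [DistribMulAction H A]

theorem Cfg.stabAll (c : Cfg A H) (w : A) (hw : w ≠ 0) :
    Nonempty (stabilizer H w ≃* alternatingGroup (Fin 4)) := by
  obtain ⟨v, hv, ⟨e⟩⟩ := c.stab
  obtain ⟨h, hh⟩ := c.trans w v hw hv
  exact ⟨(stabilizerEquivStabilizer hh.symm).trans e⟩

theorem card_a4 : Nat.card (alternatingGroup (Fin 4)) = 12 := by
  rw [Nat.card_eq_fintype_card]; decide +kernel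

theorem Cfg.cardStab (c : Cfg A H) (w : A) (hw : w ≠ 0) : Nat.card (stabilizer H w) = 12 := by
  obtain ⟨e⟩ := c.stabAll w hw
  rw [Nat.card_congr e.toEquiv, card_a4]

theorem Cfg.inf_card (c : Cfg A H) (R : Subgroup H) (hR : R.Normal) (w : A) (hw : w ≠ 0) :
    Nat.card (R.subgroupOf (stabilizer H w)) = 1 ∨ Nat.card (R.subgroupOf (stabilizer H w)) = 4 ∨
      Nat.card (R.subgroupOf (stabilizer H w)) = 12 := by
  obtain ⟨e⟩ := c.stabAll w hw
  exact normal_of_iso e _ inferInstance

theorem Cfg.inf_mul (c : Cfg A H) (R : Subgroup H) (w : A) (hw : w ≠ 0) :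
    Nat.card (R.subgroupOf (stabilizer H w)) * R.relIndex (stabilizer H w) = 12 := by
  rw [← c.cardStab w hw]
  exact (R.subgroupOf (stabilizer H w)).card_mul_index

theorem Cfg.le_of_index (c : Cfg A H) (R : Subgroup H) (hR : R.Normal) (hi : R.index ∣ 4) (w : A) (hw : w ≠ 0) :
    stabilizer H w ≤ R := by
  have h1 := c.inf_card R hR w hw
  have h2 := c.inf_mul R w hw
  have h3 : R.relIndex (stabilizer H w) ∣ 4 := (Subgroup.relIndex_dvd_index_of_normal R _).trans hi
  rw [← Subgroup.relIndex_eq_one]
  rcases h1 with h1 | h1 | h1 <;> rw [h1] at h2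
  · exfalso
    have : R.relIndex (stabilizer H w) = 12 := by omega
    rw [this] at h3; revert h3; decide
  · exfalso
    have : R.relIndex (stabilizer H w) = 3 := by omega
    rw [this] at h3; revert h3; decide
  · omega

theorem Cfg.top_of_index (c : Cfg A H) (R : Subgroup H) (hR : R.Normal) (hi : R.index ∣ 2) : R = ⊤ := by
  obtain ⟨v, hv, -⟩ := c.stab
  have h1 := c.le_of_index R hR (hi.trans (by norm_num)) v hv
  have h2 : 12 ∣ Nat.card R := c.cardStab v hv ▸ Subgroup.card_dvd_of_le h1
  have h3 := R.card_mul_index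
  rw [c.cardH] at h3
  rw [← Subgroup.index_eq_one]
  rcases (Nat.dvd_prime Nat.prime_two).1 hi with h | h
  · exact h
  · exfalso
    rw [h] at h3
    omega

theorem Cfg.finA (c : Cfg A H) : Finite A := Nat.finite_of_card_ne_zero (by rw [c.cardA]; norm_num)
theorem Cfg.finH (c : Cfg A H) : Finite H := Nat.finite_of_card_ne_zero (by rw [c.cardH]; norm_num)

/-- the fixed points of an element -/
def fx (A : Type v) [AddCommGroup A] [DistribMulAction H A] (x : H) : AddSubgroup A where
  carrier := {a | x • a = a}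
  add_mem' := by intro a b ha hb; simp only [Set.mem_setOf_eq] at *; rw [smul_add, ha, hb]
  zero_mem' := smul_zero x
  neg_mem' := by intro a ha; simp only [Set.mem_setOf_eq] at *; rw [smul_neg, ha]

theorem Cfg.fx_card (c : Cfg A H) (x : H) (hx : x ^ 3 = 1) (hx1 : x ≠ 1) (w : A) (hw : w ≠ 0) (hxw : x • w = w) :
    Nat.card (fx A x) = 4 := by
  classical
  haveI := c.finA
  haveI := c.finH
  haveI : Fact (Nat.Prime 3) := ⟨Nat.prime_three⟩
  have hd : Nat.card (fx A x) ∣ 16 := c.cardA ▸ AddSubgroup.card_addSubgroup_dvd_card _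
  have ho : orderOf x = 3 := orderOf_eq_prime hx hx1
  have hp : IsPGroup 3 (Subgroup.zpowers x) := IsPGroup.of_card (n := 1) (by rw [Nat.card_zpowers, ho, pow_one])
  have hm := hp.card_modEq_card_fixedPoints A
  have he : Nat.card (fixedPoints (Subgroup.zpowers x) A) = Nat.card (fx A x) := by
    apply Nat.card_congr
    refine Equiv.subtypeEquivRight ?_
    intro a
    constructor
    · intro h
      exact h ⟨x, Subgroup.mem_zpowers x⟩
    · intro h g
      have : Subgroup.zpowers x ≤ stabilizer H a := by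
        rw [Subgroup.zpowers_le]; exact h
      exact this g.2
  rw [he, c.cardA] at hm
  have h1 : Nat.card (fx A x) ≠ 1 := by
    intro h
    rw [AddSubgroup.card_eq_one] at h
    have : w ∈ fx A x := hxw
    rw [h, AddSubgroup.mem_bot] at this
    exact hw this
  have h16 : Nat.card (fx A x) ≠ 16 := by
    intro h
    have : fx A x = ⊤ := AddSubgroup.eq_top_of_card_eq _ (by rw [h, c.cardA])
    apply hx1
    apply c.faith
    intro w'
    have hw' : w' ∈ fx A x := by rw [this]; trivial
    exact hw'
  have hle := Nat.le_of_dvd (by norm_num) hd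
  have hpos : 0 < Nat.card (fx A x) := Nat.card_pos
  unfold Nat.ModEq at hm
  interval_cases hk : Nat.card (fx A x) <;> first | rfl | omega

theorem Cfg.cardP (c : Cfg A H) [Fact (Nat.Prime 5)] (P : Sylow 5 H) : Nat.card P = 5 := by
  haveI := c.finH
  have := P.card_eq_multiplicity
  rw [c.cardH] at this
  have hf : Nat.factorization 180 5 = 1 := by
    have : (180 : ℕ) = 5 * 36 := by norm_num
    rw [this, Nat.factorization_mul (by norm_num) (by norm_num)]
    simp [Nat.Prime.factorization (by norm_num : Nat.Prime 5)]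
    exact Nat.factorization_eq_zero_of_not_dvd (by norm_num)
  rw [hf, pow_one] at this
  exact this

theorem Cfg.not_normal (c : Cfg A H) [Fact (Nat.Prime 5)] (P : Sylow 5 H) : ¬ (P : Subgroup H).Normal := by
  classical
  intro hN
  haveI := c.finA
  haveI := c.finH
  obtain ⟨v, hv, -⟩ := c.stab
  let f : H →* MulAut (P : Subgroup H) := MulAut.conjNormal
  have hP5 : Nat.card (P : Subgroup H) = 5 := c.cardP P
  haveI : IsCyclic (P : Subgroup H) := isCyclic_of_prime_card (p := 5) hP5
  have hi : f.ker.index ∣ 4 := by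
    rw [Subgroup.index_ker]
    have h1 : Nat.card f.range ∣ Nat.card (MulAut (P : Subgroup H)) := Subgroup.card_subgroup_dvd_card _
    rw [IsCyclic.card_mulAut, hP5] at h1
    exact h1
  have hle := c.le_of_index f.ker inferInstance hi v hv
  haveI : Fact (Nat.Prime 3) := ⟨Nat.prime_three⟩
  obtain ⟨x, hx⟩ := exists_prime_orderOf_dvd_card' (G := stabilizer H v) 3 (by rw [c.cardStab v hv]; norm_num)
  have hx3 : (x : H) ^ 3 = 1 := by
    have := pow_orderOf_eq_one x
    rw [hx] at this
    exact congrArg Subtype.val this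
  have hx1 : (x : H) ≠ 1 := by
    intro h
    have : x = 1 := Subtype.ext h
    rw [this, orderOf_one] at hx
    omega
  have hfx := c.fx_card (x : H) hx3 hx1 v hv x.2
  have hcomm : ∀ p : (P : Subgroup H), (x : H) * p = p * x := by
    intro p
    have h1 : f x = 1 := hle x.2
    have h2 : f x p = p := by rw [h1]; rfl
    have h3 := congrArg Subtype.val h2
    rw [MulAut.conjNormal_apply] at h3
    exact mul_inv_eq_iff_eq_mul.1 h3
  have hmem : ∀ p : (P : Subgroup H), (p : H) • v ∈ fx A (x : H) := by
    intro p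
    change (x : H) • (p : H) • v = (p : H) • v
    rw [smul_smul, hcomm p, ← smul_smul]
    exact congrArg _ x.2
  let g : ↥(P : Subgroup H) → ↥(fx A (x : H)) := fun p => ⟨(p : H) • v, hmem p⟩
  have hg : Function.Injective g := by
    intro p q hpq
    have h1 : (p : H) • v = (q : H) • v := congrArg Subtype.val hpq
    have h2 : ((q : H)⁻¹ * p) ∈ stabilizer H v := by
      rw [mem_stabilizer_iff, mul_smul, h1, inv_smul_smul]
    have h3 : ((q : H)⁻¹ * p) ∈ (P : Subgroup H) := mul_mem (inv_mem q.2) p.2
    have h4 : orderOf ((q : H)⁻¹ * p) ∣ 12 := by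
      rw [← c.cardStab v hv]
      exact Subgroup.orderOf_dvd_natCard _ h2
    have h5 : orderOf ((q : H)⁻¹ * p) ∣ 5 := by
      have := Subgroup.orderOf_dvd_natCard _ h3
      rwa [hP5] at this
    have h6 : orderOf ((q : H)⁻¹ * p) ∣ 1 := by
      have := Nat.dvd_gcd h4 h5
      simpa using this
    rw [Nat.dvd_one, orderOf_eq_one_iff] at h6
    apply Subtype.ext
    rw [inv_mul_eq_one] at h6
    exact h6.symm
  have := Nat.card_le_card_of_injective g hg
  rw [hP5, hfx] at this
  omega

end H48.Agl
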