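import Cfsg.Agent.Lib.H48.Agl2

set_option autoImplicit false
set_option linter.all false

namespace H48.Agl

universe u v

open MulAction

variable {A : Type v} {H : Type u} [AddCommGroup A] [Group H] [DistribMulAction H A]

theorem a4_eight : (Finset.univ.filter (fun g : alternatingGroup (Fin 4) => g ^ 3 = 1 ∧ g ≠ 1)).card = 8 := by
  decide +kernel

/-- at least 40 elements of order 3 have a non-zero fixed point -/
theorem Cfg.forty (c : Cfg A H) [Fintype H] [DecidableEq H] (U : Finset H)
    (hU : ∀ x, x ∈ U ↔ (x ^ 3 = 1 ∧ x ≠ 1 ∧ ∃ w : A, w ≠ 0 ∧ x • w = w)) : 40 ≤ U.card := by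
  classical
  haveI := c.finA
  haveI : Fintype A := Fintype.ofFinite A
  have h15 : (Finset.univ.filter (fun w : A => w ≠ 0)).card = 15 := by
    have h1 : Finset.univ.filter (fun w : A => w ≠ 0) = Finset.univ.erase 0 := by
      ext w; simp
    rw [h1, Finset.card_erase_of_mem (Finset.mem_univ _), Finset.card_univ, ← Nat.card_eq_fintype_card, c.cardA]
  have key := Finset.card_mul_le_card_mul (s := Finset.univ.filter (fun w : A => w ≠ 0)) (t := U)
    (fun (w : A) (x : H) => x • w = w) (m := 8) (n := 3) ?_ ?_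
  · rw [h15] at key; omega
  · intro w hw
    rw [Finset.mem_filter] at hw
    obtain ⟨e⟩ := c.stabAll w hw.2
    rw [← a4_eight]
    refine Finset.card_le_card_of_injOn (fun g => ((e.symm g : stabilizer H w) : H)) ?_ ?_
    · intro g hg
      have hg' : g ^ 3 = 1 ∧ g ≠ 1 := by
        have := Finset.mem_filter.1 (Finset.mem_coe.1 hg)
        exact this.2
      rw [Finset.mem_coe, Finset.bipartiteAbove, Finset.mem_filter, hU]
      have hfix : ((e.symm g : stabilizer H w) : H) • w = w := (e.symm g).2
      refine ⟨⟨?_, ?_, w, hw.2, hfix⟩, hfix⟩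
      · have : (e.symm g) ^ 3 = 1 := by rw [← map_pow, hg'.1, map_one]
        exact congrArg Subtype.val this
      · intro h
        apply hg'.2
        have : e.symm g = 1 := Subtype.ext h
        exact (map_eq_one_iff e.symm e.symm.injective).1 this
    · intro g _ g' _ h
      exact e.symm.injective (Subtype.ext h)
  · intro x hx
    obtain ⟨hx3, hx1, w, hw, hxw⟩ := (hU x).1 hx
    have h4 := c.fx_card x hx3 hx1 w hw hxw
    have h5 : (Finset.univ.filter (fun a : A => x • a = a)).card = 4 := by
      rw [← h4, Nat.card_eq_fintype_card, Fintype.card_subtype]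
      rfl
    have hsub : insert 0 ((Finset.univ.filter (fun w : A => w ≠ 0)).bipartiteBelow (fun (w : A) (x : H) => x • w = w) x) ⊆
        Finset.univ.filter (fun a : A => x • a = a) := by
      intro a ha
      rw [Finset.mem_insert, Finset.bipartiteBelow, Finset.mem_filter] at ha
      rw [Finset.mem_filter]
      rcases ha with rfl | ha
      · exact ⟨Finset.mem_univ _, smul_zero x⟩
      · exact ⟨Finset.mem_univ _, ha.2⟩
    have := Finset.card_le_card hsub
    rw [Finset.card_insert_of_notMem, h5] at this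
    · omega
    · rw [Finset.bipartiteBelow, Finset.mem_filter, Finset.mem_filter]
      rintro ⟨⟨-, h⟩, -⟩
      exact h rfl

/-- the elements of order 5 -/
theorem Cfg.fives (c : Cfg A H) [Fintype H] [DecidableEq H] [Fact (Nat.Prime 5)] (T : Finset H)
    (hT : ∀ x, x ∈ T ↔ (x ^ 5 = 1 ∧ x ≠ 1)) : Nat.card (Sylow 5 H) * 4 ≤ T.card := by
  classical
  haveI : Fintype (Sylow 5 H) := Fintype.ofFinite _
  have key := Finset.card_mul_le_card_mul (s := (Finset.univ : Finset (Sylow 5 H))) (t := T)
    (fun (P : Sylow 5 H) (x : H) => x ∈ P) (m := 4) (n := 1) ?_ ?_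
  · rw [Finset.card_univ, ← Nat.card_eq_fintype_card] at key; omega
  · intro P _
    have hP : Nat.card P = 5 := c.cardP P
    have hsub : (Finset.univ.filter (fun x : H => x ∈ P)) ⊆ insert 1 (T.bipartiteAbove (fun (P : Sylow 5 H) (x : H) => x ∈ P) P) := by
      intro x hx
      rw [Finset.mem_filter] at hx
      rw [Finset.mem_insert, Finset.bipartiteAbove, Finset.mem_filter, hT]
      by_cases h1 : x = 1
      · left; exact h1
      · right
        refine ⟨⟨?_, h1⟩, hx.2⟩
        have h2 : (⟨x, hx.2⟩ : P) ^ Nat.card P = 1 := pow_card_eq_one'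
        rw [hP] at h2
        exact congrArg Subtype.val h2
    have h5 : (Finset.univ.filter (fun x : H => x ∈ P)).card = 5 := by
      refine Eq.trans ?_ hP
      rw [Nat.card_eq_fintype_card, Fintype.card_subtype]
      rfl
    have := Finset.card_le_card hsub
    have h6 := Finset.card_insert_le (1 : H) (T.bipartiteAbove (fun (P : Sylow 5 H) (x : H) => x ∈ P) P)
    omega
  · intro x hx
    obtain ⟨hx5, hx1⟩ := (hT x).1 hx
    rw [Finset.card_le_one]
    intro P hP Q hQ
    rw [Finset.bipartiteBelow, Finset.mem_filter] at hP hQ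
    have ho : orderOf x = 5 := orderOf_eq_prime hx5 hx1
    have h1 : ∀ R : Sylow 5 H, x ∈ R → Subgroup.zpowers x = (R : Subgroup H) := by
      intro R hR
      have hle : Subgroup.zpowers x ≤ (R : Subgroup H) := by
        rw [Subgroup.zpowers_le]; exact hR
      refine Subgroup.eq_of_le_of_card_ge hle ?_
      rw [Nat.card_zpowers, ho]
      exact (c.cardP R).le
    apply Sylow.ext
    rw [← h1 P hP.2, ← h1 Q hQ.2]

theorem Cfg.six (c : Cfg A H) [Fact (Nat.Prime 5)] : Nat.card (Sylow 5 H) = 6 := by
  classical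
  haveI := c.finH
  haveI : Fintype H := Fintype.ofFinite H
  have hm : Nat.card (Sylow 5 H) ≡ 1 [MOD 5] := card_sylow_modEq_one 5 H
  let P : Sylow 5 H := default
  have hdvd : Nat.card (Sylow 5 H) ∣ 36 := by
    have h1 := P.card_dvd_index
    have h2 := (P : Subgroup H).card_mul_index
    have h3 : Nat.card (P : Subgroup H) = 5 := c.cardP P
    rw [h3, c.cardH] at h2
    have h4 : (P : Subgroup H).index = 36 := by omega
    rwa [h4] at h1
  have hle := Nat.le_of_dvd (by norm_num) hdvd
  have h1 : Nat.card (Sylow 5 H) ≠ 1 := by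
    intro h
    apply c.not_normal P
    rw [← Subgroup.normalizer_eq_top_iff, ← Subgroup.index_eq_one]
    exact P.card_eq_index_normalizer.symm.trans h
  have h36 : Nat.card (Sylow 5 H) ≠ 36 := by
    intro h
    have hT := c.fives (Finset.univ.filter (fun x : H => x ^ 5 = 1 ∧ x ≠ 1)) (by intro x; simp)
    have hU := c.forty (Finset.univ.filter (fun x : H => x ^ 3 = 1 ∧ x ≠ 1 ∧ ∃ w : A, w ≠ 0 ∧ x • w = w))
      (by intro x; rw [Finset.mem_filter]; simp)
    rw [h] at hT
    have hdis : Disjoint (Finset.univ.filter (fun x : H => x ^ 5 = 1 ∧ x ≠ 1))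
        (Finset.univ.filter (fun x : H => x ^ 3 = 1 ∧ x ≠ 1 ∧ ∃ w : A, w ≠ 0 ∧ x • w = w)) := by
      rw [Finset.disjoint_filter]
      rintro x - ⟨h5, h1⟩ ⟨h3, -, -⟩
      apply h1
      have : orderOf x ∣ Nat.gcd 5 3 := Nat.dvd_gcd (orderOf_dvd_of_pow_eq_one h5) (orderOf_dvd_of_pow_eq_one h3)
      have h' : orderOf x ∣ 1 := by simpa using this
      rwa [Nat.dvd_one, orderOf_eq_one_iff] at h'
    have hc := Finset.card_union_of_disjoint hdis
    have hle := Finset.card_le_univ ((Finset.univ.filter (fun x : H => x ^ 5 = 1 ∧ x ≠ 1)) ∪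
        (Finset.univ.filter (fun x : H => x ^ 3 = 1 ∧ x ≠ 1 ∧ ∃ w : A, w ≠ 0 ∧ x • w = w)))
    rw [← Nat.card_eq_fintype_card, c.cardH] at hle
    omega
  unfold Nat.ModEq at hm
  interval_cases hk : Nat.card (Sylow 5 H) <;> first | rfl | omega

end H48.Agl
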