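import Cfsg.Agent.Lib.H48.Agl3

set_option autoImplicit false
set_option linter.all false

namespace H48.Agl

universe u v

open MulAction

variable {A : Type v} {H : Type u} [AddCommGroup A] [Group H] [DistribMulAction H A]

theorem Cfg.no_index_two (c : Cfg A H) (Y : Subgroup H) : Y.index ≠ 2 := by
  intro h
  haveI := Subgroup.normal_of_index_eq_two h
  have h1 := c.top_of_index Y inferInstance (by rw [h])
  rw [h1, Subgroup.index_top] at h
  omega

theorem Cfg.exists_normal (c : Cfg A H) : ∃ R : Subgroup H, R.Normal ∧ Nat.card R = 3 := by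
  classical
  haveI := c.finH
  haveI : Fact (Nat.Prime 5) := ⟨by norm_num⟩
  haveI : Fintype (Sylow 5 H) := Fintype.ofFinite _
  have h6 := c.six
  obtain ⟨v, hv, -⟩ := c.stab
  let f : H →* Equiv.Perm (Sylow 5 H) := MulAction.toPermHom H (Sylow 5 H)
  have hR : f.ker.Normal := inferInstance
  have hle : ∀ P : Sylow 5 H, f.ker ≤ Subgroup.normalizer P := by
    intro P r hr
    have h0 : f r = 1 := hr
    have h1 : f r P = P := by rw [h0]; rfl
    exact Sylow.smul_eq_iff_mem_normalizer.1 h1
  let P : Sylow 5 H := default
  have h30 : Nat.card f.ker ∣ 30 := by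
    have h1 := P.card_eq_index_normalizer
    rw [h6] at h1
    have h2 := (Subgroup.normalizer (P : Set H)).card_mul_index
    have h3 : (Subgroup.normalizer (P : Set H)).index = 6 := h1.symm
    rw [c.cardH, h3] at h2
    have h4 : Nat.card (Subgroup.normalizer (P : Set H)) = 30 := by omega
    rw [← h4]
    exact Subgroup.card_dvd_of_le (hle P)
  have hinf : Nat.card (f.ker.subgroupOf (stabilizer H v)) = 1 := by
    have h1 := c.inf_card f.ker hR v hv
    have h2 : Nat.card (f.ker.subgroupOf (stabilizer H v)) ∣ 30 :=
      (Subgroup.card_comap_dvd_of_injective f.ker (stabilizer H v).subtype Subtype.coe_injective).trans h30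
    rcases h1 with h | h | h
    · exact h
    · exfalso; rw [h] at h2; revert h2; decide
    · exfalso; rw [h] at h2; revert h2; decide
  have h15 : Nat.card f.ker ∣ 15 := by
    have h1 := c.inf_mul f.ker v hv
    rw [hinf, one_mul] at h1
    have h2 : 12 ∣ f.ker.index := h1 ▸ Subgroup.relIndex_dvd_index_of_normal f.ker _
    obtain ⟨k, hk⟩ := h2
    have h3 := f.ker.card_mul_index
    rw [c.cardH, hk] at h3
    exact ⟨k, by nlinarith⟩
  have h5 : ¬ 5 ∣ Nat.card f.ker := by
    intro h
    obtain ⟨r, hr⟩ := exists_prime_orderOf_dvd_card' (G := f.ker) 5 h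
    have hr' : orderOf (r : H) = 5 := by rw [Subgroup.orderOf_coe]; exact hr
    have hz : IsPGroup 5 (Subgroup.zpowers (r : H)) := IsPGroup.of_card (n := 1) (by rw [Nat.card_zpowers, hr', pow_one])
    have hall : ∀ Q : Sylow 5 H, Subgroup.zpowers (r : H) = (Q : Subgroup H) := by
      intro Q
      have h1 := hz.inf_normalizer_sylow Q
      have h2 : Subgroup.zpowers (r : H) ≤ Subgroup.normalizer (Q : Set H) := by
        rw [Subgroup.zpowers_le]; exact hle Q r.2
      have h3 : Subgroup.zpowers (r : H) ≤ (Q : Subgroup H) := by
        have h4 : Subgroup.zpowers (r : H) ⊓ (Subgroup.normalizer (Q : Set H)) = Subgroup.zpowers (r : H) := inf_eq_left.2 h2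
        rw [← h4]
        exact h1.le.trans inf_le_right
      refine Subgroup.eq_of_le_of_card_ge h3 ?_
      rw [Nat.card_zpowers, hr']
      exact (c.cardP Q).le
    have hs : Subsingleton (Sylow 5 H) := ⟨fun Q Q' => Sylow.ext (by rw [← hall Q, ← hall Q'])⟩
    have := Finite.card_le_one_iff_subsingleton.2 hs
    omega
  have hne1 : Nat.card f.ker ≠ 1 := by
    intro h1
    have hinj : Function.Injective f := by
      rw [← MonoidHom.ker_eq_bot_iff]
      exact Subgroup.card_eq_one.1 h1
    let s : H →* ℤˣ := Equiv.Perm.sign.comp f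
    have hs : s.ker = ⊤ := by
      apply c.top_of_index s.ker inferInstance
      rw [Subgroup.index_ker]
      have h2 : Nat.card s.range ∣ Nat.card ℤˣ := Subgroup.card_subgroup_dvd_card _
      have h3 : Nat.card ℤˣ = 2 := by rw [Nat.card_eq_fintype_card]; rfl
      rwa [h3] at h2
    have hmem : ∀ h : H, f h ∈ alternatingGroup (Sylow 5 H) := by
      intro h
      rw [Equiv.Perm.mem_alternatingGroup]
      have : h ∈ s.ker := by rw [hs]; trivial
      exact this
    let f' : H →* alternatingGroup (Sylow 5 H) := f.codRestrict _ hmem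
    have hinj' : Function.Injective f' := by
      intro x y hxy
      exact hinj (congrArg Subtype.val hxy)
    have hcr : Nat.card f'.range = 180 := by
      rw [← c.cardH]
      exact (Nat.card_congr (MonoidHom.ofInjective hinj').toEquiv).symm
    haveI : Nontrivial (Sylow 5 H) := by
      rw [← Finite.one_lt_card_iff_nontrivial, h6]; norm_num
    have hca : Nat.card (alternatingGroup (Sylow 5 H)) = 360 := by
      have := two_mul_nat_card_alternatingGroup (α := Sylow 5 H)
      rw [Nat.card_perm, h6] at this
      have h720 : Nat.factorial 6 = 720 := rfl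
      omega
    have hi : f'.range.index = 2 := by
      have := f'.range.card_mul_index
      rw [hcr, hca] at this
      omega
    haveI := Subgroup.normal_of_index_eq_two hi
    haveI := alternatingGroup.isSimpleGroup (α := Sylow 5 H) (by rw [h6]; norm_num)
    rcases IsSimpleGroup.eq_bot_or_eq_top_of_normal f'.range inferInstance with h | h
    · rw [h, Subgroup.card_bot] at hcr; omega
    · rw [h, Subgroup.index_top] at hi; omega
  refine ⟨f.ker, hR, ?_⟩
  have hle15 := Nat.le_of_dvd (by norm_num) h15
  have hpos : 0 < Nat.card f.ker := Nat.card_pos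
  clear_value f
  generalize Nat.card f.ker = k at *
  interval_cases k <;> first | rfl | omega | (exfalso; revert h15; decide)

end H48.Agl
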