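import Cfsg.Agent.Lib.H48.Agl4
import Cfsg.Agent.Lib.H39.DB0

set_option autoImplicit false
set_option linter.all false

namespace H48.Agl

universe u v

open MulAction H39.DA

variable {G : Type u} {Ω : Type v} [Group G] [MulAction G Ω]

/-- the conjugation action of a subgroup on an abelian normal subgroup, additively -/
@[reducible] def conjAct (B E : Subgroup G) (hEn : E.Normal) (cg : ∀ g ∈ E, ∀ g' ∈ E, g * g' = g' * g) :
    letI : CommGroup E := { (inferInstance : Group E) with mul_comm := fun x y => Subtype.ext (cg x x.2 y y.2) }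
    DistribMulAction B (Additive E) :=
  letI : CommGroup E := { (inferInstance : Group E) with mul_comm := fun x y => Subtype.ext (cg x x.2 y y.2) }
  { smul := fun h w => Additive.ofMul ⟨(h : G) * (w.toMul : G) * (h : G)⁻¹, hEn.conj_mem _ w.toMul.2 _⟩
    one_smul := by
      intro w
      apply Additive.toMul.injective
      apply Subtype.ext
      change ((1 : B) : G) * (w.toMul : G) * ((1 : B) : G)⁻¹ = _
      simp
    mul_smul := by
      intro x y w
      apply Additive.toMul.injective
      apply Subtype.ext
      change ((x * y : B) : G) * (w.toMul : G) * ((x * y : B) : G)⁻¹ = (x : G) * ((y : G) * (w.toMul : G) * (y : G)⁻¹) * (x : G)⁻¹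
      simp [mul_assoc]
    smul_zero := by
      intro x
      apply Additive.toMul.injective
      apply Subtype.ext
      change (x : G) * ((1 : E) : G) * (x : G)⁻¹ = ((1 : E) : G)
      simp
    smul_add := by
      intro x w w'
      apply Additive.toMul.injective
      apply Subtype.ext
      change (x : G) * ((w.toMul * w'.toMul : E) : G) * (x : G)⁻¹ = ((x : G) * (w.toMul : G) * (x : G)⁻¹) * ((x : G) * (w'.toMul : G) * (x : G)⁻¹)
      simp [mul_assoc] }

theorem exists_X [Finite G] (h : B4 G Ω) (hn : Nat.card Ω = 16) (a : Ω) (E : Subgroup G) (hE : Reg G Ω E)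
    (hEc : ∀ g ∈ E, ∀ g' ∈ E, g * g' = g' * g) :
    ∃ X : Subgroup (stabilizer G a), X.Normal ∧ Nat.card X = 3 ∧ (∀ Y : Subgroup (stabilizer G a), Y.index ≠ 2) := by
  classical
  obtain ⟨hEn, htr, hreg⟩ := hE
  letI : CommGroup E := { (inferInstance : Group E) with mul_comm := fun x y => Subtype.ext (hEc x x.2 y y.2) }
  letI : DistribMulAction (stabilizer G a) (Additive E) := conjAct (stabilizer G a) E hEn hEc
  have hsm : ∀ (g : stabilizer G a) (w : Additive E), (((g • w : Additive E).toMul : E) : G) = (g : G) * (w.toMul : G) * (g : G)⁻¹ :=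
    fun g w => rfl
  -- the regular action
  have hbij : Function.Bijective (fun w : E => (w : G) • a) := by
    constructor
    · intro w w' hw
      have h1 : (((w' : G))⁻¹ * w) • a = a := by
        rw [mul_smul]
        change (w' : G)⁻¹ • ((w : G) • a) = a
        have : (w : G) • a = (w' : G) • a := hw
        rw [this, inv_smul_smul]
      have h2 := hreg _ (mul_mem (inv_mem w'.2) w.2) a h1
      apply Subtype.ext
      rw [inv_mul_eq_one] at h2
      exact h2.symm
    · intro x
      obtain ⟨g, hg, hgx⟩ := htr a x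
      exact ⟨⟨g, hg⟩, hgx⟩
  have hcE : Nat.card (Additive E) = 16 := by
    rw [← hn]
    exact Nat.card_congr ((Additive.toMul (α := E)).trans (Equiv.ofBijective _ hbij))
  haveI : Finite (Additive E) := Nat.finite_of_card_ne_zero (by rw [hcE]; norm_num)
  have hne : ∀ w : Additive E, w ≠ 0 → ((w.toMul : E) : G) • a ≠ a := by
    intro w hw hwa
    have h1 := hreg _ w.toMul.2 a hwa
    apply hw
    apply Additive.toMul.injective
    exact Subtype.ext h1
  have htrans : ∀ x y : Additive E, x ≠ 0 → y ≠ 0 → ∃ g : stabilizer G a, g • x = y := by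
    intro x y hx hy
    obtain ⟨g, hga, hgx⟩ := h.tr a (((x.toMul : E) : G) • a) a (((y.toMul : E) : G) • a) (hne x hx).symm (hne y hy).symm
    refine ⟨⟨g, hga⟩, ?_⟩
    apply Additive.toMul.injective
    apply hbij.1
    change (g * ((x.toMul : E) : G) * g⁻¹) • a = ((y.toMul : E) : G) • a
    rw [mul_smul, mul_smul, inv_smul_eq_iff.2 hga.symm, hgx]
  have hexists : ∃ v : Additive E, v ≠ 0 := by
    haveI : Nontrivial (Additive E) := by
      rw [← Finite.one_lt_card_iff_nontrivial, hcE]; norm_num
    exact exists_ne 0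
  obtain ⟨v, hv⟩ := hexists
  have hiff : ∀ g : stabilizer G a, g • v = v ↔ (g : G) • (((v.toMul : E) : G) • a) = ((v.toMul : E) : G) • a := by
    intro g
    have h0 : (((g • v : Additive E).toMul : E) : G) • a = (g : G) • (((v.toMul : E) : G) • a) := by
      rw [hsm, mul_smul, mul_smul]
      have : (g : G)⁻¹ • a = a := by rw [inv_smul_eq_iff]; exact g.2.symm
      rw [this]
    constructor
    · intro hg
      rw [← h0, hg]
    · intro hg
      apply Additive.toMul.injective
      apply hbij.1
      change (((g • v : Additive E).toMul : E) : G) • a = ((v.toMul : E) : G) • a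
      rw [h0, hg]
  obtain ⟨e⟩ := h.a4 a (((v.toMul : E) : G) • a) (hne v hv).symm
  let φ : stabilizer (stabilizer G a) v ≃* St G a (((v.toMul : E) : G) • a) :=
    { toFun := fun g => ⟨(g : stabilizer G a), ⟨(g : stabilizer G a).2, (hiff g).1 g.2⟩⟩
      invFun := fun g => ⟨⟨g, g.2.1⟩, (hiff ⟨g, g.2.1⟩).2 g.2.2⟩
      left_inv := fun g => rfl
      right_inv := fun g => rfl
      map_mul' := fun g g' => rfl }
  have hstab : ∃ v : Additive E, v ≠ 0 ∧ Nonempty (stabilizer (stabilizer G a) v ≃* alternatingGroup (Fin 4)) :=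
    ⟨v, hv, ⟨φ.trans e⟩⟩
  have hcH : Nat.card (stabilizer G a) = 180 := by
    have horb : orbit (stabilizer G a) v = {w | w ≠ 0} := by
      ext w
      constructor
      · rintro ⟨g, rfl⟩
        intro h0
        apply hv
        have : g⁻¹ • (g • v) = 0 := by
          change g⁻¹ • ((fun m : stabilizer G a => m • v) g) = 0
          rw [h0, smul_zero]
        rwa [inv_smul_smul] at this
      · intro hw
        exact htrans v w hv hw
    have h1 := (stabilizer (stabilizer G a) v).card_mul_index
    rw [index_stabilizer, Nat.card_congr (φ.trans e).toEquiv, card_a4, horb] at h1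
    have h2 : Set.ncard {w : Additive E | w ≠ 0} = 15 := by
      have h3 : {w : Additive E | w ≠ 0} = ({0} : Set (Additive E))ᶜ := by
        ext w; simp
      rw [h3, Set.ncard_compl, hcE, Set.ncard_singleton]
    rw [h2] at h1
    omega
  have hfaith : ∀ g : stabilizer G a, (∀ w : Additive E, g • w = w) → g = 1 := by
    intro g hg
    apply Subtype.ext
    apply h.faith
    intro x
    obtain ⟨w, hw⟩ := hbij.2 x
    have h1 := congrArg (fun z : Additive E => ((z.toMul : E) : G)) (hg (Additive.ofMul w))
    have h2 : (g : G) * (w : G) * (g : G)⁻¹ = w := h1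
    have h3 : (g : G) • a = a := g.2
    rw [← hw]
    change (g : G) • ((w : G) • a) = (w : G) • a
    have h4 : (g : G) * w = w * g := mul_inv_eq_iff_eq_mul.1 h2
    rw [smul_smul, h4, ← smul_smul, h3]
  have c : Cfg (Additive E) (stabilizer G a) := ⟨hcE, hcH, hfaith, htrans, hstab⟩
  obtain ⟨X, hX, hX3⟩ := c.exists_normal
  exact ⟨X, hX, hX3, c.no_index_two⟩

end H48.Agl
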