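import Mathlib

set_option autoImplicit false

/-! The theorem of Artin and Zorn: a finite alternative ring without zero divisors is
commutative and associative. -/

namespace H48.Az

section alt

variable {R : Type*} [NonAssocRing R]

/-- The associator. -/
def A (x y z : R) : R := (x * y) * z - x * (y * z)

lemma A_add1 (x x' y z : R) : A (x + x') y z = A x y z + A x' y z := by
  simp only [A, add_mul]; abel

lemma A_add2 (x y y' z : R) : A x (y + y') z = A x y z + A x y' z := by
  simp only [A, add_mul, mul_add]; abel

lemma A_add3 (x y z z' : R) : A x y (z + z') = A x y z + A x y z' := by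
  simp only [A, mul_add]; abel

lemma A_one1 (y z : R) : A 1 y z = 0 := by simp [A]
lemma A_one2 (y z : R) : A y 1 z = 0 := by simp [A]
lemma A_one3 (y z : R) : A y z 1 = 0 := by simp [A]

lemma TI (x y z t : R) :
    A (x * y) z t - A x (y * z) t + A x y (z * t) = x * A y z t + A x y z * t := by
  simp only [A, mul_sub, sub_mul]; abel

variable (hl : ∀ a b : R, a * (a * b) = (a * a) * b) (hr : ∀ a b : R, (b * a) * a = b * (a * a))

include hl in
lemma A_l (x y : R) : A x x y = 0 := by simp [A, hl]

include hr in
lemma A_r (x y : R) : A y x x = 0 := by simp [A, hr]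

include hl in
lemma A_swap12 (x y z : R) : A x y z = - A y x z := by
  have h := A_l hl (x + y) z
  rw [A_add1, A_add2, A_add2, A_l hl, A_l hl, zero_add, add_zero] at h
  exact eq_neg_of_add_eq_zero_left h

include hr in
lemma A_swap23 (x y z : R) : A x y z = - A x z y := by
  have h := A_r hr (y + z) x
  rw [A_add2, A_add3, A_add3, A_r hr, A_r hr, zero_add, add_zero] at h
  exact eq_neg_of_add_eq_zero_left h

include hl hr in
lemma A_cyc (x y z : R) : A x y z = A y z x := by
  rw [A_swap12 hl, A_swap23 hr, neg_neg]

include hl hr in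
lemma I2 (x y z : R) : A x (y * x) z = x * A x y z := by
  have h1 := TI x x z y
  have h3 := TI y x x z
  rw [A_l hl x (z * y), A_l hl x z, zero_mul, add_zero, add_zero] at h1
  rw [A_l hl x z, A_r hr x y, mul_zero, zero_mul, zero_add] at h3
  -- h1 : A (x*x) z y - A x (x*z) y = x * A x z y
  -- h3 : A (y*x) x z - A y (x*x) z + A y x (x*z) = 0
  rw [A_swap23 hr (x * x) z y, A_swap23 hr x (x * z) y, A_swap23 hr x z y, mul_neg] at h1
  rw [A_swap12 hl (y * x) x z, A_swap12 hl y (x * x) z, A_swap12 hl y x (x * z)] at h3
  have h4 : A (x * x) y z = A x y (x * z) + x * A x y z := by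
    have h5 : A (x * x) y z - A x y (x * z) = x * A x y z := by
      rw [← neg_inj, ← h1]; abel
    rw [← h5]; abel
  rw [h4] at h3
  have h6 : x * A x y z - A x (y * x) z = 0 := by rw [← h3]; abel
  exact (sub_eq_zero.1 h6).symm

include hl hr in
lemma I1 (x y z : R) : A x (x * y) z = A x y z * x := by
  have h1 := TI x x y z
  have h2 := TI z y x x
  have h7 := I2 hl hr x y z
  rw [A_l hl x (y * z), A_l hl x y, zero_mul, add_zero, add_zero] at h1
  rw [A_r hr x (z * y), A_r hr x y, mul_zero, zero_add, zero_sub] at h2
  -- h1 : A (x*x) y z - A x (x*y) z = x * A x y z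
  -- h2 : - A z (y*x) x + A z y (x*x) = A z y x * x
  have e1 : A z (y * x) x = - A x (y * x) z := by
    rw [A_cyc hl hr z, A_swap12 hl (y * x) x z]
  have e2 : A z y (x * x) = - A (x * x) y z := by
    rw [A_cyc hl hr z, A_swap12 hl y (x * x) z]
  have e3 : A z y x = - A x y z := by
    rw [A_cyc hl hr z, A_swap12 hl y x z]
  rw [e1, e2, e3, h7, neg_neg, neg_mul] at h2
  -- h2 : x * A x y z + - A (x*x) y z = - (A x y z * x)
  rw [← h1] at h2
  have h8 : A x (x * y) z - A x y z * x = 0 := by
    have : -(A x y z * x) = - A x (x * y) z := by rw [← h2]; abel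
    rw [neg_inj] at this
    rw [this, sub_self]
  exact sub_eq_zero.1 h8

include hl hr in
lemma J1 (x y z : R) : A x y (x * z) = A x y z * x := by
  rw [A_swap23 hr, I1 hl hr, A_swap23 hr x z y, neg_mul, neg_neg]

include hl hr in
lemma J2 (x y z : R) : A x y (z * x) = x * A x y z := by
  rw [A_swap23 hr, I2 hl hr, A_swap23 hr x z y, mul_neg, neg_neg]

/-- Words in the two letters `x`, `y`, bracketed from the right. -/
def gen (x y : R) : Bool → R
  | true => x
  | false => y

def ev (x y : R) : List Bool → R
  | [] => 1
  | c :: l => gen x y c * ev x y l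

lemma ev_nil (x y : R) : ev x y [] = 1 := rfl
lemma ev_cons (x y : R) (c : Bool) (l : List Bool) : ev x y (c :: l) = gen x y c * ev x y l := rfl
lemma ev_single (x y : R) (c : Bool) : ev x y [c] = gen x y c := by simp [ev]

/-- `P n`: words of total length at most `n` multiply as they should. -/
def PP (x y : R) (n : ℕ) : Prop :=
  ∀ l m : List Bool, l.length + m.length ≤ n → ev x y l * ev x y m = ev x y (l ++ m)

lemma QQ {x y : R} {n : ℕ} (h : PP x y n) (l m k : List Bool)
    (hn : l.length + m.length + k.length ≤ n) : A (ev x y l) (ev x y m) (ev x y k) = 0 := by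
  rw [A, h l m (by omega), h m k (by omega), h (l ++ m) k (by simp; omega),
    h l (m ++ k) (by simp; omega), List.append_assoc, sub_self]

lemma Q1 {x y : R} {n : ℕ} (h : PP x y n) (c : Bool) (m k : List Bool)
    (hn : 1 + m.length + k.length ≤ n) : A (gen x y c) (ev x y m) (ev x y k) = 0 := by
  have := QQ h [c] m k (by simp; omega)
  rwa [ev_single] at this

lemma Q3 {x y : R} {n : ℕ} (h : PP x y n) (c : Bool) (m k : List Bool)
    (hn : 1 + m.length + k.length ≤ n) : A (ev x y m) (ev x y k) (gen x y c) = 0 := by
  have := QQ h m k [c] (by simp; omega)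
  rwa [ev_single] at this

include hl hr in
lemma step {x y : R} {n : ℕ} (h : PP x y n) (c : Bool) (u v : List Bool)
    (hn : u.length + v.length ≤ n) : A (gen x y c) (ev x y u) (ev x y v) = 0 := by
  -- empty words
  rcases eq_or_ne u [] with rfl | hu
  · rw [ev_nil]; exact A_one2 _ _
  rcases eq_or_ne v [] with rfl | hv
  · rw [ev_nil]; exact A_one3 _ _
  obtain ⟨d, u', rfl⟩ := List.exists_cons_of_ne_nil hu
  obtain ⟨e, v', rfl⟩ := List.exists_cons_of_ne_nil hv
  simp only [List.length_cons] at hn
  by_cases hd : d = c
  · subst hd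
    rw [ev_cons, I1 hl hr, Q1 h d u' (e :: v') (by simp; omega), zero_mul]
  by_cases he : e = c
  · subst he
    rw [ev_cons x y e v', J1 hl hr, Q1 h e (d :: u') v' (by simp; omega), zero_mul]
  have hde : d = e := by
    revert hd he; cases c <;> cases d <;> cases e <;> simp
  subst hde
  -- the last letter of the second word
  obtain ⟨w, f, hw⟩ : ∃ w f, d :: v' = w ++ [f] :=
    ⟨(d :: v').dropLast, (d :: v').getLast (by simp), (List.dropLast_append_getLast (by simp)).symm⟩
  have hlw : w.length = v'.length := by
    have := congrArg List.length hw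
    simpa using this.symm
  by_cases hf : f = c
  · subst hf
    rw [hw, ← h w [f] (by simp; omega), ev_single, J2 hl hr, Q1 h f (d :: u') w (by simp; omega),
      mul_zero]
  have hfd : f = d := by
    revert hd hf; cases c <;> cases d <;> cases f <;> simp
  subst hfd
  -- now both words begin with `f`, the second one ends with `f`
  have key := TI (gen x y f) (ev x y u') (ev x y (f :: v')) (gen x y c)
  have r1 : A (ev x y u') (ev x y (f :: v')) (gen x y c) = 0 :=
    Q3 h c u' (f :: v') (by simp; omega)
  have r2 : A (gen x y f) (ev x y u') (ev x y (f :: v')) = 0 :=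
    Q1 h f u' (f :: v') (by simp; omega)
  have r3 : A (gen x y f) (ev x y u' * ev x y (f :: v')) (gen x y c) = 0 := by
    rw [h u' (f :: v') (by simp; omega), hw, ← List.append_assoc,
      ← h (u' ++ w) [f] (by simp; omega), ev_single, I2 hl hr]
    have := Q1 h f (u' ++ w) [c] (by simp; omega)
    rw [ev_single] at this
    rw [this, mul_zero]
  have r4 : A (gen x y f) (ev x y u') (ev x y (f :: v') * gen x y c) = 0 := by
    have e1 : ev x y (f :: v') * gen x y c = gen x y f * ev x y (v' ++ [c]) := by
      have := h (f :: v') [c] (by simp; omega)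
      rw [ev_single] at this
      rw [this, List.cons_append, ev_cons]
    rw [e1, J1 hl hr, Q1 h f u' (v' ++ [c]) (by simp; omega), zero_mul]
  rw [r1, r2, r3, r4, mul_zero, zero_mul, sub_zero, add_zero, add_zero] at key
  rw [A_cyc hl hr, ev_cons]
  exact key

include hl hr in
lemma PP_all (x y : R) (n : ℕ) : PP x y n := by
  induction n with
  | zero =>
    intro l m h
    have h1 : l = [] := List.length_eq_zero_iff.1 (by omega)
    subst h1
    simp [ev]
  | succ n ih =>
    intro l m h
    rcases l with _ | ⟨c, l⟩
    · simp [ev]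
    · have h1 := step hl hr ih c l m (by simp at h; omega)
      rw [A, sub_eq_zero] at h1
      rw [ev_cons, h1, ih l m (by simp at h; omega), List.cons_append, ev_cons]

include hl hr in
lemma ev_mul (x y : R) (l m : List Bool) : ev x y l * ev x y m = ev x y (l ++ m) :=
  PP_all hl hr x y _ l m le_rfl

include hl hr in
/-- **Artin's theorem.**  The subring generated by two elements is associative. -/
theorem artin (x y a b c : R) (ha : a ∈ Subring.closure {x, y}) (hb : b ∈ Subring.closure {x, y})
    (hc : c ∈ Subring.closure {x, y}) : (a * b) * c = a * (b * c) := by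
  set S : AddSubgroup R := AddSubgroup.closure (Set.range (ev x y)) with hS
  have hSm : ∀ a ∈ S, ∀ b ∈ S, a * b ∈ S := by
    intro a ha b hb
    induction ha using AddSubgroup.closure_induction with
    | mem a ha =>
      obtain ⟨l, rfl⟩ := ha
      induction hb using AddSubgroup.closure_induction with
      | mem b hb =>
        obtain ⟨m, rfl⟩ := hb
        rw [ev_mul hl hr]
        exact AddSubgroup.subset_closure ⟨_, rfl⟩
      | zero => rw [mul_zero]; exact S.zero_mem
      | add u v _ _ hu hv => rw [mul_add]; exact S.add_mem hu hv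
      | neg u _ hu => rw [mul_neg]; exact S.neg_mem hu
    | zero => rw [zero_mul]; exact S.zero_mem
    | add u v _ _ hu hv => rw [add_mul]; exact S.add_mem hu hv
    | neg u _ hu => rw [neg_mul]; exact S.neg_mem hu
  let T : Subring R :=
    { carrier := S
      mul_mem' := fun ha hb => hSm _ ha _ hb
      one_mem' := AddSubgroup.subset_closure ⟨[], rfl⟩
      add_mem' := fun ha hb => S.add_mem ha hb
      zero_mem' := S.zero_mem
      neg_mem' := fun ha => S.neg_mem ha }
  have hT : Subring.closure {x, y} ≤ T := by
    rw [Subring.closure_le]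
    rintro z (rfl | rfl)
    · exact AddSubgroup.subset_closure ⟨[true], by simp [ev, gen]⟩
    · exact AddSubgroup.subset_closure ⟨[false], by simp [ev, gen]⟩
  have h0 : ∀ l m k : List Bool, A (ev x y l) (ev x y m) (ev x y k) = 0 := fun l m k =>
    QQ (PP_all hl hr x y _) l m k le_rfl
  have An1 : ∀ a b c : R, A (-a) b c = - A a b c := by
    intro a b c; simp [A, sub_eq_add_neg, add_comm]
  have An2 : ∀ a b c : R, A a (-b) c = - A a b c := by
    intro a b c; simp [A, sub_eq_add_neg, add_comm]
  have An3 : ∀ a b c : R, A a b (-c) = - A a b c := by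
    intro a b c; simp [A, sub_eq_add_neg, add_comm]
  have h3 : ∀ c ∈ S, ∀ l m, A (ev x y l) (ev x y m) c = 0 := by
    intro c hc l m
    induction hc using AddSubgroup.closure_induction with
    | mem c hc => obtain ⟨k, rfl⟩ := hc; exact h0 l m k
    | zero => simp [A]
    | add u v _ _ hu hv => rw [A_add3, hu, hv, add_zero]
    | neg u _ hu => rw [An3, hu, neg_zero]
  have h2 : ∀ b ∈ S, ∀ c ∈ S, ∀ l, A (ev x y l) b c = 0 := by
    intro b hb c hc l
    induction hb using AddSubgroup.closure_induction with
    | mem b hb => obtain ⟨k, rfl⟩ := hb; exact h3 c hc l k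
    | zero => simp [A]
    | add u v _ _ hu hv => rw [A_add2, hu, hv, add_zero]
    | neg u _ hu => rw [An2, hu, neg_zero]
  have h1 : ∀ a ∈ S, ∀ b ∈ S, ∀ c ∈ S, A a b c = 0 := by
    intro a ha b hb c hc
    induction ha using AddSubgroup.closure_induction with
    | mem a ha => obtain ⟨k, rfl⟩ := ha; exact h2 b hb c hc k
    | zero => simp [A]
    | add u v _ _ hu hv => rw [A_add1, hu, hv, add_zero]
    | neg u _ hu => rw [An1, hu, neg_zero]
  exact sub_eq_zero.1 (h1 a (hT ha) b (hT hb) c (hT hc))

end alt

/-- **Artin–Zorn.** -/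
theorem main {R : Type*} [NonAssocRing R] [Finite R] [Nontrivial R]
    (h0 : ∀ a b : R, a * b = 0 → a = 0 ∨ b = 0)
    (hl : ∀ a b : R, a * (a * b) = (a * a) * b) (hr : ∀ a b : R, (b * a) * a = b * (a * a)) :
    (∀ a b : R, a * b = b * a) ∧ (∀ a b c : R, (a * b) * c = a * (b * c)) := by
  classical
  -- the ring structure on the subring generated by two elements
  have hfield : ∀ x y : R, ∃ (F : Type _) (_ : Field F) (_ : Finite F) (φ : F → R),
      Function.Injective φ ∧ Set.range φ = (Subring.closure {x, y} : Set R) ∧
      (∀ a b, φ (a * b) = φ a * φ b) ∧ φ 1 = 1 ∧ φ 0 = 0 := by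
    intro x y
    let S := Subring.closure {x, y}
    let rS : Ring S :=
      { (inferInstance : NonAssocRing S) with
        mul_assoc := fun a b c =>
          Subtype.ext (artin hl hr x y a b c a.2 b.2 c.2) }
    have : Nontrivial S := ⟨0, 1, fun h => zero_ne_one (congrArg Subtype.val h)⟩
    have : NoZeroDivisors S := ⟨fun {a b} h => by
      rcases h0 a b (congrArg Subtype.val h) with h | h
      · exact Or.inl (Subtype.ext h)
      · exact Or.inr (Subtype.ext h)⟩
    have : IsDomain S := NoZeroDivisors.to_isDomain S
    have hF := Finite.isDomain_to_isField S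
    refine ⟨S, hF.toField, inferInstance, fun a => (a : R), Subtype.val_injective,
      Subtype.range_val, fun a b => rfl, rfl, rfl⟩
  have hcomm : ∀ a b : R, a * b = b * a := by
    intro a b
    obtain ⟨F, _, _, φ, hφ, hφr, hm, h1, hz⟩ := hfield a b
    have ha : a ∈ Set.range φ := by
      rw [hφr]; exact Subring.subset_closure (by simp)
    have hb : b ∈ Set.range φ := by
      rw [hφr]; exact Subring.subset_closure (by simp)
    obtain ⟨a', rfl⟩ := ha
    obtain ⟨b', rfl⟩ := hb
    rw [← hm, ← hm, mul_comm]
  refine ⟨hcomm, fun a b c => ?_⟩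
  obtain ⟨F, _, _, φ, hφ, hφr, hm, h1, hz⟩ := hfield a b
  have ha : a ∈ Set.range φ := by
    rw [hφr]; exact Subring.subset_closure (by simp)
  have hb : b ∈ Set.range φ := by
    rw [hφr]; exact Subring.subset_closure (by simp)
  obtain ⟨a', rfl⟩ := ha
  obtain ⟨b', rfl⟩ := hb
  have : Finite Fˣ := inferInstance
  obtain ⟨d, hd⟩ := IsCyclic.exists_generator (α := Fˣ)
  have hin : ∀ f : F, φ f ∈ Subring.closure {φ (d : F), c} := by
    intro f
    rcases eq_or_ne f 0 with rfl | hf
    · rw [hz]; exact Subring.zero_mem _
    obtain ⟨n, hn⟩ := (mem_powers_iff_mem_zpowers.2 (hd (Units.mk0 f hf)) :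
      Units.mk0 f hf ∈ Submonoid.powers d)
    have hn' : (d : F) ^ n = f := by
      have := congrArg Units.val hn
      simpa using this
    rw [← hn']
    clear hn hn' hf
    induction n with
    | zero => rw [pow_zero, h1]; exact Subring.one_mem _
    | succ n ih =>
      rw [pow_succ, hm]
      exact Subring.mul_mem _ ih (Subring.subset_closure (by simp))
  exact artin hl hr (φ (d : F)) c _ _ _ (hin a') (hin b') (Subring.subset_closure (by simp))

end H48.Az
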