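import Cfsg.Agent.Lib.H48.MaxSing

set_option autoImplicit false
set_option linter.unusedSectionVars false
set_option linter.style.haveILetI false

/-! Involutions of `O` conjugate under the group of the polar form are conjugate in `O` (characteristic two). -/

namespace H48.OInv

open QuadraticMap Matrix H48.QuadWitt H48.QuadSplit H48.QuadStd Module H48.OmegaPlus H48.MaxSing

variable {F : Type*} [Field F] [CharP F 2] [Fintype F] {ι : Type} [Fintype ι] [DecidableEq ι]
  {Q : QuadraticForm F (ι → F)}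

theorem isConj_iff_sp (hQ : ND Q) {m : ℕ} (hd : Fintype.card ι = 2 * m)
    (t s : ↥(Cfsg.isometryGroup F (⇑Q))) (ht : orderOf t = 2) (hs : orderOf s = 2) :
    IsConj t s ↔ ∃ g ∈ Cfsg.preserving (Units.coeHom (Matrix ι ι F))
      (fun u v => Q (u + v) - Q u - Q v),
      g * (t : GeneralLinearGroup ι F) * g⁻¹ = (s : GeneralLinearGroup ι F) := by
  have ht2 := sq_of_order t ht
  have hs2 := sq_of_order s hs
  constructor
  · intro h
    obtain ⟨g, hg⟩ := isConj_iff.mp h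
    refine ⟨g, ?_, congrArg Subtype.val hg⟩
    intro u v
    change Q (((g : GeneralLinearGroup ι F) : Matrix ι ι F) *ᵥ u +
      ((g : GeneralLinearGroup ι F) : Matrix ι ι F) *ᵥ v) -
      Q (((g : GeneralLinearGroup ι F) : Matrix ι ι F) *ᵥ u) -
      Q (((g : GeneralLinearGroup ι F) : Matrix ι ι F) *ᵥ v) = Q (u + v) - Q u - Q v
    rw [← Matrix.mulVec_add, iso_apply, iso_apply, iso_apply]
  · rintro ⟨g, hg, hgt⟩
    have hgp : ∀ u v, polar Q ((g : Matrix ι ι F) *ᵥ u) ((g : Matrix ι ι F) *ᵥ v) = polar Q u v :=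
      fun u v => hg u v
    rw [isConj_iff_inv hQ hd t s ht2 hs2]
    have hgm : (g : Matrix ι ι F) * ((t : GeneralLinearGroup ι F) : Matrix ι ι F) =
        ((s : GeneralLinearGroup ι F) : Matrix ι ι F) * (g : Matrix ι ι F) := by
      rw [mul_inv_eq_iff_eq_mul] at hgt
      exact congrArg Units.val hgt
    have hN : ∀ x, (g : Matrix ι ι F) *ᵥ (mN t x) = mN s ((g : Matrix ι ι F) *ᵥ x) := by
      intro x
      rw [mN_apply, mN_apply, Matrix.mulVec_sub, Matrix.mulVec_mulVec, Matrix.mulVec_mulVec, hgm]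
    have hdet : IsUnit (g : Matrix ι ι F).det := (Matrix.isUnit_iff_isUnit_det _).mp g.isUnit
    have hg1 : ∀ x, (g : Matrix ι ι F) *ᵥ ((g : Matrix ι ι F)⁻¹ *ᵥ x) = x := by
      intro x
      rw [Matrix.mulVec_mulVec, Matrix.mul_nonsing_inv _ hdet, Matrix.one_mulVec]
    constructor
    · rw [finrank_range_mN, finrank_range_mN]
      have h1 : (g : Matrix ι ι F) * (((t : GeneralLinearGroup ι F) : Matrix ι ι F) - 1) =
          (((s : GeneralLinearGroup ι F) : Matrix ι ι F) - 1) * (g : Matrix ι ι F) := by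
        rw [mul_sub, sub_mul, hgm, mul_one, one_mul]
      rw [← Matrix.rank_mul_eq_right_of_isUnit_det _ _ hdet, h1,
        Matrix.rank_mul_eq_left_of_isUnit_det _ _ hdet]
    · have e : ∀ x, Q (mN t x) = Q (mN s ((g : Matrix ι ι F) *ᵥ x)) := by
        intro x
        rw [(oi_of_sq t ht2).Q_N, (oi_of_sq s hs2).Q_N, ← hN, hgp]
      constructor
      · intro h x
        have := h ((g : Matrix ι ι F)⁻¹ *ᵥ x)
        rw [e, hg1] at this
        exact this
      · intro h x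
        rw [e]
        exact h _

/-- Conjugacy in `Ω` when the centraliser is not contained in `Ω`. -/
theorem conj_in_Omega (hQ : ND Q) {m : ℕ} (hd : Fintype.card ι = 2 * m)
    (hidx : (Cfsg.Omega F (⇑Q)).index = 2)
    (t s : ↥(Cfsg.isometryGroup F (⇑Q))) (ht : orderOf t = 2)
    (hc : ¬ (finrank F (LinearMap.range (mN t)) = m ∧ ∀ x, Q (mN t x) = 0)) (h : IsConj t s) :
    ∃ g ∈ Cfsg.Omega F (⇑Q), g * t * g⁻¹ = s := by
  obtain ⟨g, hg⟩ := isConj_iff.mp h
  by_cases hgΩ : g ∈ Cfsg.Omega F (⇑Q)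
  · exact ⟨g, hgΩ, hg⟩
  · obtain ⟨c, hc1, hc2⟩ := exists_commute_not_mem hQ hd t (sq_of_order t ht) hc
    refine ⟨g * c, ?_, ?_⟩
    · rw [Subgroup.mul_mem_iff_of_index_two hidx]
      exact iff_of_false hgΩ hc1
    · calc (g * c) * t * (g * c)⁻¹ = g * (c * t) * c⁻¹ * g⁻¹ := by group
        _ = g * (t * c) * c⁻¹ * g⁻¹ := by rw [hc2]
        _ = g * t * g⁻¹ := by group
        _ = s := hg

/-- Conjugacy in `Ω` in the alternating case of maximal rank. -/
theorem conj_in_Omega_max (hQ : ND Q) {m : ℕ} (hd : Fintype.card ι = 2 * m)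
    (hF : Fintype.card F ≠ 2 ∨ Fintype.card ι ≠ 4)
    (t s : ↥(Cfsg.isometryGroup F (⇑Q))) (ht : orderOf t = 2)
    (hr : finrank F (LinearMap.range (mN t)) = m) (hA : ∀ x, Q (mN t x) = 0) (h : IsConj t s) :
    (∃ g ∈ Cfsg.Omega F (⇑Q), g * t * g⁻¹ = s) ↔
      Even (finrank F ↥(LinearMap.range (mN t) ⊓ LinearMap.range (mN s))) := by
  have ht2 := sq_of_order t ht
  have hme : Even m := by
    have := (oi_of_sq t ht2).even_rank hQ hA
    rwa [hr] at this
  have hMS : MS Q m (LinearMap.range (mN t)) := ⟨by rintro _ ⟨x, rfl⟩; exact hA x, hr⟩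
  have hmap : ∀ g : ↥(Cfsg.isometryGroup F (⇑Q)), g * t * g⁻¹ = s →
      (LinearMap.range (mN t)).map (Matrix.toLin' ((g : GeneralLinearGroup ι F) : Matrix ι ι F)) =
        LinearMap.range (mN s) := by
    intro g hg
    have hgN : ∀ x, ((g : GeneralLinearGroup ι F) : Matrix ι ι F) *ᵥ (mN t x) =
        mN s (((g : GeneralLinearGroup ι F) : Matrix ι ι F) *ᵥ x) := by
      intro x
      rw [mN_apply, mN_apply, Matrix.mulVec_sub, ← mulVec_mul, ← mulVec_mul, ← hg,
        inv_mul_cancel_right]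
    ext y
    constructor
    · rintro ⟨_, ⟨x, rfl⟩, rfl⟩
      rw [Matrix.toLin'_apply, hgN]
      exact ⟨_, rfl⟩
    · rintro ⟨x, rfl⟩
      refine ⟨mN t (((g⁻¹ : ↥(Cfsg.isometryGroup F (⇑Q)) ) : GeneralLinearGroup ι F) *ᵥ x), ⟨_, rfl⟩, ?_⟩
      rw [Matrix.toLin'_apply, hgN, ← mulVec_mul, mul_inv_cancel, OInv.mulVec_one]
  have key : ∀ g : ↥(Cfsg.isometryGroup F (⇑Q)), g * t * g⁻¹ = s →
      (g ∈ Cfsg.Omega F (⇑Q) ↔
        Even (finrank F ↥(LinearMap.range (mN t) ⊓ LinearMap.range (mN s)))) := by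
    intro g hg
    rw [mem_Omega_iff_parity hQ hd hF hMS g, hmap g hg]
    tauto
  constructor
  · rintro ⟨g, hg, hgs⟩
    exact (key g hgs).mp hg
  · intro hev
    obtain ⟨g, hg⟩ := isConj_iff.mp h
    exact ⟨g, (key g hg).mpr hev, hg⟩

end H48.OInv
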