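import Mathlib
import Cfsg.Agent.Lib.H48.Az1

set_option autoImplicit false

/-! Two pieces of algebra for O'Nan's theorem: a pairing with the Jordan property comes from a
field, and Hua's identity for additive groups of maps closed under inversion. -/

namespace H48.Oz

/-- Hua's identity. -/
theorem jordan {M₁ M₂ : Type*} [AddCommGroup M₁] [AddCommGroup M₂]
    (A : AddSubgroup (M₂ →+ M₁)) (B : AddSubgroup (M₁ →+ M₂))
    (hA : ∀ α ∈ A, α ≠ 0 → ∃ β ∈ B, β.comp α = AddMonoidHom.id M₂ ∧ α.comp β = AddMonoidHom.id M₁)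
    (hB : ∀ β ∈ B, β ≠ 0 → ∃ α ∈ A, α.comp β = AddMonoidHom.id M₁ ∧ β.comp α = AddMonoidHom.id M₂)
    {α : M₂ →+ M₁} {β : M₁ →+ M₂} (hα : α ∈ A) (hβ : β ∈ B) : (α.comp β).comp α ∈ A := by
  classical
  rcases eq_or_ne α 0 with rfl | hα0
  · have : (((0 : M₂ →+ M₁).comp β).comp (0 : M₂ →+ M₁)) = 0 := by ext; simp
    rw [this]; exact A.zero_mem
  rcases eq_or_ne β 0 with rfl | hβ0
  · have : ((α.comp (0 : M₁ →+ M₂)).comp α) = 0 := by ext; simp
    rw [this]; exact A.zero_mem
  obtain ⟨α', hα', e1, e2⟩ := hA α hα hα0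
  obtain ⟨β', hβ', f1, f2⟩ := hB β hβ hβ0
  have e1' : ∀ x, α' (α x) = x := fun x => DFunLike.congr_fun e1 x
  have e2' : ∀ x, α (α' x) = x := fun x => DFunLike.congr_fun e2 x
  have f1' : ∀ x, β' (β x) = x := fun x => DFunLike.congr_fun f1 x
  have f2' : ∀ x, β (β' x) = x := fun x => DFunLike.congr_fun f2 x
  by_cases hd : β' - α = 0
  · have h1 : β' = α := sub_eq_zero.1 hd
    have : (α.comp β).comp α = α := by
      ext x
      simp only [AddMonoidHom.comp_apply]
      rw [← h1, f1']
    rw [this]; exact hα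
  obtain ⟨γ', hγ', g1, g2⟩ := hA (β' - α) (A.sub_mem hβ' hα) hd
  have g1' : ∀ x, γ' (β' x - α x) = x := fun x => DFunLike.congr_fun g1 x
  have g2' : ∀ x, β' (γ' x) - α (γ' x) = x := fun x => DFunLike.congr_fun g2 x
  have hδ : ∀ x, (α' + γ') x = α' (β' (γ' x)) := by
    intro x
    have h1 : β' (γ' x) = x + α (γ' x) := by
      have := g2' x
      rw [sub_eq_iff_eq_add] at this
      exact this
    rw [h1, map_add, e1', AddMonoidHom.add_apply]
  by_cases hd0 : α' + γ' = 0
  · -- everything is trivial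
    have h1 : ∀ x : M₁, x = 0 := by
      intro x
      have h2 := hδ x
      rw [hd0, AddMonoidHom.zero_apply] at h2
      have h3 : α (α' (β' (γ' x))) = 0 := by rw [← h2, map_zero]
      rw [e2'] at h3
      have h4 : β (β' (γ' x)) = 0 := by rw [h3, map_zero]
      rw [f2'] at h4
      have h5 := g2' x
      rw [h4, map_zero, map_zero, sub_zero] at h5
      exact h5.symm
    have : (α.comp β).comp α = α := by
      ext x
      rw [h1 (α x), h1 (((α.comp β).comp α) x)]
    rw [this]; exact hα
  obtain ⟨ε, hε, k1, k2⟩ := hB (α' + γ') (B.add_mem (by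
    exact hα') hγ') hd0
  have k1' : ∀ x, ε ((α' + γ') x) = x := fun x => DFunLike.congr_fun k1 x
  have k2' : ∀ x, (α' + γ') (ε x) = x := fun x => DFunLike.congr_fun k2 x
  have hfin : (α.comp β).comp α = α - ε := by
    ext x
    simp only [AddMonoidHom.comp_apply, AddMonoidHom.sub_apply]
    -- `ε x = (β' - α) (β (α x))`
    have h1 : ε x = β' (β (α x)) - α (β (α x)) := by
      have h2 : (α' + γ') (β' (β (α x)) - α (β (α x))) = x := by
        rw [hδ, g1', f1', e1']
      rw [← h2, k1']
      rw [h2]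
    rw [h1, f1']
    abel
  rw [hfin]
  exact A.sub_mem hα hε

/-- A pairing with the two Jordan properties comes from a field. -/
theorem pairing {P Q S : Type*} [AddCommGroup P] [AddCommGroup Q] [AddCommGroup S] [Finite P]
    [Finite Q] [Finite S] (B : P →+ Q →+ S)
    (hb1 : ∀ g, g ≠ 0 → Function.Bijective (B g))
    (hb2 : ∀ u, u ≠ 0 → Function.Bijective (fun g => B g u)) [Nontrivial P] [Nontrivial Q]
    (JL : ∀ g0, g0 ≠ 0 → ∀ g, ∃ g', ∀ u v, B g0 v = B g u → B g v = B g' u)
    (JR : ∀ u0, u0 ≠ 0 → ∀ u, ∃ u', ∀ g h, B h u0 = B g u → B h u = B g u') :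
    ∀ g0, g0 ≠ 0 →
      (∀ g g1, ∃ g2, ∀ u v, B g0 v = B g1 u → B g v = B g2 u) ∧
      (∀ g g1 u v w, B g0 v = B g1 u → B g0 w = B g u → B g v = B g1 w) := by
  intro g0 hg0
  obtain ⟨u0, hu0⟩ := exists_ne (0 : Q)
  let eL : P ≃+ S := AddEquiv.ofBijective (AddMonoidHom.flip B u0) (hb2 u0 hu0)
  let eR : Q ≃+ S := AddEquiv.ofBijective (B g0) (hb1 g0 hg0)
  have heL : ∀ g, eL g = B g u0 := fun g => rfl
  have heR : ∀ u, eR u = B g0 u := fun u => rfl
  let rS : NonAssocRing S :=
    { (inferInstance : AddCommGroup S) with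
      mul := fun x y => B (eL.symm x) (eR.symm y)
      one := B g0 u0
      left_distrib := fun x y z => by
        change B (eL.symm x) (eR.symm (y + z)) = _ + _
        rw [map_add, map_add]
        rfl
      right_distrib := fun x y z => by
        change B (eL.symm (x + y)) (eR.symm z) = _ + _
        rw [map_add, map_add]
        rfl
      zero_mul := fun x => by
        change B (eL.symm 0) (eR.symm x) = 0
        rw [map_zero, map_zero]; rfl
      mul_zero := fun x => by
        change B (eL.symm x) (eR.symm 0) = 0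
        rw [map_zero, map_zero]
      one_mul := fun x => by
        change B (eL.symm (B g0 u0)) (eR.symm x) = x
        rw [← heL g0, AddEquiv.symm_apply_apply, ← heR, AddEquiv.apply_symm_apply]
      mul_one := fun x => by
        change B (eL.symm x) (eR.symm (B g0 u0)) = x
        rw [← heR u0, AddEquiv.symm_apply_apply, ← heL, AddEquiv.apply_symm_apply] }
  have hmul : ∀ x y : S, x * y = B (eL.symm x) (eR.symm y) := fun x y => rfl
  have hmul' : ∀ g u, B g u = eL g * eR u := by
    intro g u
    rw [hmul, AddEquiv.symm_apply_apply, AddEquiv.symm_apply_apply]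
  have hz : ∀ x y : S, x * y = 0 → x = 0 ∨ y = 0 := by
    intro x y h
    rw [hmul] at h
    by_cases hx : eL.symm x = 0
    · left
      have := congrArg eL hx
      rwa [AddEquiv.apply_symm_apply, map_zero] at this
    · right
      have h1 : eR.symm y = 0 := (hb1 _ hx).1 (by rw [h, map_zero])
      have := congrArg eR h1
      rwa [AddEquiv.apply_symm_apply, map_zero] at this
  have : Nontrivial S := eR.toEquiv.symm.nontrivial
  have hone : (1 : S) = eL g0 := rfl
  have hone' : (1 : S) = eR u0 := rfl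
  have hl : ∀ a b : S, a * (a * b) = (a * a) * b := by
    intro a b
    obtain ⟨g, rfl⟩ := eL.surjective a
    obtain ⟨g', hg'⟩ := JL g0 hg0 g
    have key : ∀ u, eL g * (eL g * eR u) = eL g' * eR u := by
      intro u
      obtain ⟨v, hv⟩ := eR.surjective (B g u)
      have h1 := hg' u v hv
      rw [hmul', hmul', hv, hmul'] at h1
      exact h1
    obtain ⟨u, rfl⟩ := eR.surjective b
    rw [key u]
    have h2 := key u0
    rw [← hone', mul_one, mul_one] at h2
    rw [h2]
  have hr : ∀ a b : S, (b * a) * a = b * (a * a) := by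
    intro a b
    obtain ⟨u, rfl⟩ := eR.surjective a
    obtain ⟨u', hu'⟩ := JR u0 hu0 u
    have key : ∀ g, (eL g * eR u) * eR u = eL g * eR u' := by
      intro g
      obtain ⟨h, hh⟩ := eL.surjective (B g u)
      have h1 := hu' g h hh
      rw [hmul', hmul', hh, hmul'] at h1
      exact h1
    obtain ⟨g, rfl⟩ := eL.surjective b
    rw [key g]
    have h2 := key g0
    rw [← hone, one_mul, one_mul] at h2
    rw [h2]
  obtain ⟨hcomm, hassoc⟩ := H48.Az.main hz hl hr
  have hR : ∀ {u v : Q}, eR u = eR v → u = v := fun h => eR.injective h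
  constructor
  · intro g g1
    refine ⟨eL.symm (eL g * eL g1), fun u v h => ?_⟩
    have h0 : B g0 v = eR v := rfl
    rw [h0, hmul'] at h
    rw [hmul', hmul', AddEquiv.apply_symm_apply, h, hassoc]
  · intro g g1 u v w h1 h2
    have h0 : B g0 v = eR v := rfl
    have h0' : B g0 w = eR w := rfl
    rw [h0, hmul'] at h1
    rw [h0', hmul'] at h2
    rw [hmul', hmul', h1, h2, ← hassoc, ← hassoc, hcomm (eL g)]

end H48.Oz
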