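import Mathlib

set_option autoImplicit false

/-! Groups generated by elations of a projective space, given by coordinates of the points. -/

namespace H48.Pid

open Module Submodule

/-- A group acting on the points of the projective space of `V` (the point `x` is spanned by `v x`),
with a conjugation invariant family `N x` of groups of elations with centre `x`. -/
structure Cfg {G X : Type*} [Group G] [MulAction G X] (K : Type*) {V : Type*} [Field K]
    [AddCommGroup V] [Module K V] (v : X → V) (N : X → Subgroup G) : Prop where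
  hv0 : ∀ x, v x ≠ 0
  hv : ∀ w : V, w ≠ 0 → ∃ x, ∃ c : K, w = c • v x
  hinj : ∀ x y, (∃ c : K, v x = c • v y) → x = y
  hcol : ∀ (g : G) (x y z : X), v z ∈ span K {v x, v y} → v (g • z) ∈ span K {v (g • x), v (g • y)}
  hconj : ∀ (g : G) (x : X) (n : G), n ∈ N x → g * n * g⁻¹ ∈ N (g • x)
  hNx : ∀ x, ∀ n ∈ N x, n • x = x
  hline : ∀ x, ∀ n ∈ N x, ∀ y, v (n • y) ∈ span K {v x, v y}
  hax : ∀ x, ∀ n ∈ N x, ∀ y z, y ≠ z → ∃ u, n • u = u ∧ v u ∈ span K {v y, v z}
  hT : ∀ x, ∀ n ∈ N x, ∀ b, n • b = b → ∀ z z', n • z ≠ z → z' ≠ b → v z' ∈ span K {v b, v z} →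
    ∃ h ∈ N b, h • z = z' ∧ ∀ y : X, n • y = y → h • y = y

variable {G X : Type*} [Group G] [MulAction G X] {K V : Type*} [Field K] [AddCommGroup V] [Module K V]
  {v : X → V} {N : X → Subgroup G} (C : Cfg K v N)

include C

lemma Cfg.pt {w : V} (hw : w ≠ 0) : ∃ x, ∃ c : K, c ≠ 0 ∧ w = c • v x := by
  obtain ⟨x, c, h⟩ := C.hv w hw
  refine ⟨x, c, ?_, h⟩
  rintro rfl
  exact hw (by simpa using h)

lemma Cfg.indep {x y : X} (hxy : x ≠ y) : LinearIndependent K ![v x, v y] := by
  rw [LinearIndependent.pair_iff' (C.hv0 x)]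
  intro a h
  exact hxy (C.hinj y x ⟨a, h.symm⟩).symm

lemma Cfg.coef {x y : X} (hxy : x ≠ y) {a b : K} (h : a • v x + b • v y = 0) : a = 0 ∧ b = 0 :=
  LinearIndependent.pair_iff.1 (C.indep hxy) a b h

lemma Cfg.exch {a b p q : X} (hpq : p ≠ q) (hp : v p ∈ span K {v a, v b})
    (hq : v q ∈ span K {v a, v b}) : span K {v a, v b} = span K {v p, v q} := by
  classical
  have h1 : span K {v p, v q} ≤ span K {v a, v b} := by
    rw [span_le]
    rintro z (rfl | rfl)
    · exact hp
    · exact hq
  have h2 : finrank K (span K {v p, v q}) = 2 := by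
    have h3 := finrank_span_eq_card (C.indep hpq)
    have h5 : Set.range ![v p, v q] = {v p, v q} := by
      simp only [Matrix.range_cons, Matrix.range_empty, Set.union_empty, Set.singleton_union]
    rw [h5] at h3
    simpa using h3
  have h4 : finrank K (span K {v a, v b}) ≤ 2 := by
    have := finrank_span_finset_le_card (R := K) ({v a, v b} : Finset V)
    simp only [Finset.coe_insert, Finset.coe_singleton] at this
    exact this.trans Finset.card_le_two
  have : FiniteDimensional K (span K ({v a, v b} : Set V)) :=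
    FiniteDimensional.span_of_finite K (Set.toFinite _)
  exact (eq_of_le_of_finrank_le h1 (by rw [h2]; exact h4)).symm

/-- The line through two fixed points of an elation is fixed pointwise. -/
lemma Cfg.line_fix {x : X} {n : G} (hn : n ∈ N x) {y₁ y₂ y : X} (h1 : n • y₁ = y₁)
    (h2 : n • y₂ = y₂) (hy : v y ∈ span K {v y₁, v y₂}) : n • y = y := by
  by_contra hne
  -- the two points are different
  have h12 : y₁ ≠ y₂ := by
    rintro rfl
    rw [Set.pair_eq_singleton, mem_span_singleton] at hy
    obtain ⟨c, hc⟩ := hy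
    have := C.hinj y y₁ ⟨c, hc.symm⟩
    rw [this] at hne
    exact hne h1
  by_cases hx : v x ∈ span K {v y₁, v y₂}
  · have hxy : x ≠ y := by
      rintro rfl
      exact hne (C.hNx x n hn)
    have key : ∀ u : X, u ≠ x → n • u = u → v u ∈ span K {v y₁, v y₂} → False := by
      intro u hux hu hus
      rw [C.exch hxy hx hy] at hus
      obtain ⟨h, hh, hhy, hfix⟩ := C.hT x n hn x (C.hNx x n hn) y u hne hux hus
      have h3 : h • y = h • u := by rw [hhy, hfix u hu]
      have h4 : y = u := smul_left_cancel h h3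
      rw [h4] at hne
      exact hne hu
    by_cases h5 : y₁ = x
    · exact key y₂ (fun h => h12 (h5.trans h.symm)) h2 (subset_span (by simp))
    · exact key y₁ h5 h1 (subset_span (by simp))
  · have h3 := C.hcol n y₁ y₂ y hy
    rw [h1, h2] at h3
    obtain ⟨a, b, hab⟩ := mem_span_pair.1 (C.hline x n hn y)
    have ha : a = 0 := by
      by_contra ha
      apply hx
      have h4 : v x = a⁻¹ • (v (n • y) - b • v y) := by
        rw [← hab, add_sub_cancel_right, smul_smul, inv_mul_cancel₀ ha, one_smul]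
      rw [h4]
      exact smul_mem _ _ (sub_mem h3 (smul_mem _ _ hy))
    rw [ha, zero_smul, zero_add] at hab
    exact hne (C.hinj _ _ ⟨b, hab.symm⟩)

/-- The fixed space of an elation. -/
def Cfg.W {x : X} {n : G} (hn : n ∈ N x) : Submodule K V where
  carrier := {w | ∀ y, ∀ c : K, c ≠ 0 → w = c • v y → n • y = y}
  zero_mem' := by
    intro y c hc h
    exact absurd h.symm (smul_ne_zero hc (C.hv0 y))
  smul_mem' := by
    intro a w hw y c hc h
    have ha : a ≠ 0 := by
      rintro rfl
      rw [zero_smul] at h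
      exact (smul_ne_zero hc (C.hv0 y)) h.symm
    refine hw y (a⁻¹ * c) (mul_ne_zero (inv_ne_zero ha) hc) ?_
    rw [← smul_smul, ← h, smul_smul, inv_mul_cancel₀ ha, one_smul]
  add_mem' := by
    intro w₁ w₂ h1 h2 y c hc h
    rcases eq_or_ne w₁ 0 with rfl | hw1
    · exact h2 y c hc (by rw [← h, zero_add])
    rcases eq_or_ne w₂ 0 with rfl | hw2
    · exact h1 y c hc (by rw [← h, add_zero])
    obtain ⟨y₁, c₁, hc1, e1⟩ := C.pt hw1
    obtain ⟨y₂, c₂, hc2, e2⟩ := C.pt hw2
    refine C.line_fix hn (h1 y₁ c₁ hc1 e1) (h2 y₂ c₂ hc2 e2) ?_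
    have h3 : v y = (c⁻¹ * c₁) • v y₁ + (c⁻¹ * c₂) • v y₂ := by
      rw [← smul_smul, ← smul_smul, ← smul_add, ← e1, ← e2, h, smul_smul, inv_mul_cancel₀ hc,
        one_smul]
    rw [h3]
    exact mem_span_pair.2 ⟨_, _, rfl⟩

lemma Cfg.mem_W {x : X} {n : G} (hn : n ∈ N x) {y : X} : v y ∈ C.W hn ↔ n • y = y := by
  constructor
  · intro h
    exact h y 1 one_ne_zero (by rw [one_smul])
  · intro h z c hc e
    have := C.hinj y z ⟨c, e⟩
    rw [← this]
    exact h

/-- The action of an elation in coordinates. -/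
lemma Cfg.form {x : X} {n : G} (hn : n ∈ N x) (h3 : 3 ≤ finrank K V) :
    ∃ φ : Dual K V, φ (v x) = 0 ∧ ∀ y, ∃ c : K, v (n • y) = c • (v y + φ (v y) • v x) := by
  classical
  have hfd : FiniteDimensional K V := FiniteDimensional.of_finrank_pos (by omega)
  by_cases hall : ∀ y : X, n • y = y
  · exact ⟨0, rfl, fun y => ⟨1, by simp [hall]⟩⟩
  push Not at hall
  obtain ⟨z₀, hz0⟩ := hall
  have hz0W : v z₀ ∉ C.W hn := fun h => hz0 ((C.mem_W hn).1 h)
  -- codimension one
  have hcod : ∀ w : V, ∃ a : K, w - a • v z₀ ∈ C.W hn := by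
    intro w
    rcases eq_or_ne w 0 with rfl | hw
    · exact ⟨0, by simp⟩
    obtain ⟨y, c, hc, rfl⟩ := C.pt hw
    rcases eq_or_ne y z₀ with rfl | hyz
    · exact ⟨c, by simp⟩
    obtain ⟨u, hu, hus⟩ := C.hax x n hn y z₀ hyz
    obtain ⟨a, b, hab⟩ := mem_span_pair.1 hus
    have huW : v u ∈ C.W hn := (C.mem_W hn).2 hu
    have ha : a ≠ 0 := by
      rintro rfl
      rw [zero_smul, zero_add] at hab
      have hb : b ≠ 0 := by
        rintro rfl
        rw [zero_smul] at hab
        exact C.hv0 u hab.symm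
      apply hz0W
      have : v z₀ = b⁻¹ • v u := by rw [← hab, smul_smul, inv_mul_cancel₀ hb, one_smul]
      rw [this]
      exact smul_mem _ _ huW
    refine ⟨-(c * a⁻¹ * b), ?_⟩
    have : c • v y - (-(c * a⁻¹ * b)) • v z₀ = (c * a⁻¹) • v u := by
      rw [← hab, smul_add, smul_smul, smul_smul, neg_smul, sub_neg_eq_add,
        inv_mul_cancel_right₀ ha]
    rw [this]
    exact smul_mem _ _ huW
  obtain ⟨f, hf1, hf2⟩ := Submodule.exists_le_ker_of_notMem hz0W
  have hker : ∀ w, f w = 0 ↔ w ∈ C.W hn := by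
    intro w
    constructor
    · intro hw
      obtain ⟨a, ha⟩ := hcod w
      have h4 : f (w - a • v z₀) = 0 := hf2 ha
      rw [map_sub, hw, map_smul, zero_sub, neg_eq_zero, smul_eq_mul, mul_eq_zero] at h4
      have h5 : a = 0 := h4.resolve_right hf1
      rwa [h5, zero_smul, sub_zero] at ha
    · intro hw; exact hf2 hw
  have hfix : ∀ y, f (v y) = 0 ↔ n • y = y := fun y => (hker _).trans (C.mem_W hn)
  have hfx : f (v x) = 0 := (hfix x).2 (C.hNx x n hn)
  have hne : ∀ {y}, f (v y) ≠ 0 → x ≠ y := by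
    rintro y hy rfl
    exact hy hfx
  -- the transvection fitting `z₀`
  obtain ⟨α, β, hαβ⟩ := mem_span_pair.1 (C.hline x n hn z₀)
  have hβ : β ≠ 0 := by
    rintro rfl
    rw [zero_smul, add_zero] at hαβ
    have h4 : n • z₀ = x := C.hinj _ _ ⟨α, hαβ.symm⟩
    have h5 : n • z₀ = n • x := by rw [h4, C.hNx x n hn]
    exact hne hf1 (smul_left_cancel n h5).symm
  set a : K := α / β / f (v z₀) with ha
  have hfit0 : v (n • z₀) = β • (v z₀ + (a * f (v z₀)) • v x) := by
    rw [← hαβ, ha, div_mul_cancel₀ _ hf1, smul_add, smul_smul, mul_div_cancel₀ _ hβ, add_comm]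
  -- propagation
  have prop : ∀ z y, f (v z) ≠ 0 → f (v y) ≠ 0 → v y ∉ span K {v x, v z} →
      (∃ c : K, v (n • z) = c • (v z + (a * f (v z)) • v x)) →
      ∃ c : K, v (n • y) = c • (v y + (a * f (v y)) • v x) := by
    intro z y hz hy hyz ⟨c, hc⟩
    set w : V := f (v y) • v z - f (v z) • v y with hw
    have hwW : w ∈ C.W hn := by
      rw [← hker, hw, map_sub, map_smul, map_smul, smul_eq_mul, smul_eq_mul, mul_comm, sub_self]
    have hw0 : w ≠ 0 := by
      intro h0
      apply hyz
      have : v y = ((f (v z))⁻¹ * f (v y)) • v z := by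
        rw [← smul_smul, sub_eq_zero.1 h0, smul_smul, inv_mul_cancel₀ hz, one_smul]
      rw [this]
      exact smul_mem _ _ (subset_span (by simp))
    obtain ⟨u, d, hd, hwu⟩ := C.pt hw0
    have hu : n • u = u := by
      rw [← C.mem_W hn]
      have : v u = d⁻¹ • w := by rw [hwu, smul_smul, inv_mul_cancel₀ hd, one_smul]
      rw [this]
      exact smul_mem _ _ hwW
    have hys : v y ∈ span K {v z, v u} := by
      have : v y = ((f (v z))⁻¹ * f (v y)) • v z + (-((f (v z))⁻¹ * d)) • v u := by
        rw [neg_smul, ← smul_smul _ d, ← hwu, hw, smul_sub, smul_smul, smul_smul,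
          inv_mul_cancel₀ hz, one_smul]
        abel
      rw [this]
      exact mem_span_pair.2 ⟨_, _, rfl⟩
    have h4 := C.hcol n z u y hys
    rw [hu, hc] at h4
    obtain ⟨p, q, hpq⟩ := mem_span_pair.1 h4
    obtain ⟨r, s, hrs⟩ := mem_span_pair.1 (C.hline x n hn y)
    have hvu : v u = d⁻¹ • w := by rw [hwu, smul_smul, inv_mul_cancel₀ hd, one_smul]
    set t : K := q * d⁻¹ with ht
    set p' : K := p * c with hp'
    have e1 : v (n • y) = p' • (v z + (a * f (v z)) • v x) + t • w := by
      rw [← hpq, hvu, smul_smul, smul_smul]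
    have e2 : (r - p' * (a * f (v z))) • v x + (-p' - t * f (v y)) • v z + (s + t * f (v z)) • v y
        = 0 := by
      have : r • v x + s • v y - (p' • (v z + (a * f (v z)) • v x) + t • w) = 0 := by
        rw [hrs, e1, sub_self]
      rw [← this, hw]
      module
    have hs : s + t * f (v z) = 0 := by
      by_contra hs
      apply hyz
      have : v y = (-((s + t * f (v z))⁻¹ * (r - p' * (a * f (v z))))) • v x +
          (-((s + t * f (v z))⁻¹ * (-p' - t * f (v y)))) • v z := by
        have h5 : (s + t * f (v z)) • v y =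
            -((r - p' * (a * f (v z))) • v x + (-p' - t * f (v y)) • v z) := by
          rw [eq_neg_iff_add_eq_zero, ← e2]; abel
        have h6 : v y = (s + t * f (v z))⁻¹ • ((s + t * f (v z)) • v y) := by
          rw [smul_smul, inv_mul_cancel₀ hs, one_smul]
        refine h6.trans ?_
        rw [h5]
        module
      rw [this]
      exact mem_span_pair.2 ⟨_, _, rfl⟩
    rw [hs, zero_smul, add_zero] at e2
    obtain ⟨e3, e4⟩ := C.coef (hne hz) e2
    refine ⟨s, ?_⟩
    rw [← hrs]
    have hr : r = s * (a * f (v y)) := by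
      have : p' = - (t * f (v y)) := by linear_combination -e4
      have h7 : s = - (t * f (v z)) := by linear_combination hs
      have h8 : r = p' * (a * f (v z)) := by linear_combination e3
      rw [h8, this, h7]; ring
    rw [hr]
    module
  refine ⟨a • f, by simp [hfx], fun y => ?_⟩
  have hsm : ∀ w, (a • f) w = a * f w := fun w => rfl
  simp only [hsm]
  by_cases hy : f (v y) = 0
  · rw [(hfix y).1 hy, hy]
    exact ⟨1, by simp⟩
  by_cases hyz : v y ∈ span K {v x, v z₀}
  · -- take a third point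
    obtain ⟨m, hm⟩ : ∃ m : V, m ∉ span K {v x, v z₀} := by
      by_contra hcon
      push Not at hcon
      have h4 : span K {v x, v z₀} = ⊤ := eq_top_iff.2 (fun m _ => hcon m)
      have h5 : finrank K (span K {v x, v z₀}) ≤ 2 := by
        have := finrank_span_finset_le_card (R := K) ({v x, v z₀} : Finset V)
        simp only [Finset.coe_insert, Finset.coe_singleton] at this
        exact this.trans Finset.card_le_two
      rw [h4, finrank_top] at h5
      omega
    set w' : V := m - (f m / f (v z₀)) • v z₀ with hw'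
    have hfw' : f w' = 0 := by
      rw [hw', map_sub, map_smul, smul_eq_mul, div_mul_cancel₀ _ hf1, sub_self]
    have hw's : w' ∉ span K {v x, v z₀} := by
      intro h
      apply hm
      have : m = w' + (f m / f (v z₀)) • v z₀ := by rw [hw']; abel
      rw [this]
      exact add_mem h (smul_mem _ _ (subset_span (by simp)))
    have h0 : v z₀ + w' ≠ 0 := by
      intro h0
      have : f (v z₀ + w') = 0 := by rw [h0, map_zero]
      rw [map_add, hfw', add_zero] at this
      exact hf1 this
    obtain ⟨z₁, d, hd, hz1⟩ := C.pt h0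
    have hz1' : v z₁ = d⁻¹ • (v z₀ + w') := by
      rw [hz1, smul_smul, inv_mul_cancel₀ hd, one_smul]
    have hfz1 : f (v z₁) ≠ 0 := by
      rw [hz1', map_smul, map_add, hfw', add_zero, smul_eq_mul]
      exact mul_ne_zero (inv_ne_zero hd) hf1
    have hz1s : v z₁ ∉ span K {v x, v z₀} := by
      intro h
      apply hw's
      have : w' = d • v z₁ - v z₀ := by rw [← hz1]; abel
      rw [this]
      exact sub_mem (smul_mem _ _ h) (subset_span (by simp))
    have g1 := prop z₀ z₁ hf1 hfz1 hz1s ⟨β, hfit0⟩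
    refine prop z₁ y hfz1 hy ?_ g1
    intro hy1
    apply hz1s
    rw [C.exch (hne hy) (subset_span (by simp)) hyz,
      ← C.exch (hne hy) (subset_span (by simp)) hy1]
    exact subset_span (by simp)
  · exact prop z₀ y hf1 hy hyz ⟨β, hfit0⟩

end H48.Pid
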