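import Mathlib
import Cfsg.Agent.Lib.H48.Pid1

set_option autoImplicit false

/-! Groups generated by elations of a projective space: all transvections occur. -/

namespace H48.Pid

open Module Submodule

variable {G X : Type*} [Group G] [MulAction G X] {K V : Type*} [Field K] [AddCommGroup V] [Module K V]
  {v : X → V} {N : X → Subgroup G} (C : Cfg K v N)

include C

lemma Cfg.fix_iff {x : X} {n : G} {φ : Dual K V} (hx : φ (v x) = 0)
    (h : ∀ y, ∃ c : K, v (n • y) = c • (v y + φ (v y) • v x)) (y : X) :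
    n • y = y ↔ φ (v y) = 0 := by
  obtain ⟨c, hc⟩ := h y
  constructor
  · intro hy
    by_contra hne
    rw [hy] at hc
    have hcne : c ≠ 0 := by
      rintro rfl
      rw [zero_smul] at hc
      exact C.hv0 y hc
    have hcf : c * φ (v y) ≠ 0 := mul_ne_zero hcne hne
    have e : (1 - c) • v y = (c * φ (v y)) • v x := by
      have : v y - c • (v y + φ (v y) • v x) = 0 := by rw [← hc, sub_self]
      rw [← sub_eq_zero, ← this]
      module
    have e2 : v x = ((c * φ (v y))⁻¹ * (1 - c)) • v y := by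
      rw [← smul_smul, e, smul_smul, inv_mul_cancel₀ hcf, one_smul]
    have := C.hinj x y ⟨_, e2⟩
    rw [this] at hx
    exact hne hx
  · intro hy
    rw [hy, zero_smul, add_zero] at hc
    exact C.hinj _ _ ⟨c, hc⟩

/-- `φ` is an axis form. -/
def IsAx (v : X → V) (N : X → Subgroup G) (φ : Dual K V) : Prop :=
  ∃ x, ∃ n ∈ N x, ∀ y : X, n • y = y ↔ φ (v y) = 0

/-- Elations with given axis and centre, with any parameter. -/
lemma Cfg.elation (h3 : 3 ≤ finrank K V) {φ : Dual K V} (hφ : IsAx v N φ) {b : X}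
    (hb : φ (v b) = 0) (k : K) :
    ∃ h ∈ N b, ∀ y, ∃ c : K, v (h • y) = c • (v y + (k * φ (v y)) • v b) := by
  obtain ⟨x, n, hn, hfix⟩ := hφ
  by_cases h0 : ∀ y : X, φ (v y) = 0
  · exact ⟨1, one_mem _, fun y => ⟨1, by simp [h0]⟩⟩
  push Not at h0
  obtain ⟨z, hz⟩ := h0
  have hbz : b ≠ z := by rintro rfl; exact hz hb
  have hw0 : v z + (k * φ (v z)) • v b ≠ 0 := by
    intro h
    have := (C.coef hbz (a := k * φ (v z)) (b := 1) (by rw [one_smul, add_comm]; exact h)).2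
    exact one_ne_zero this
  obtain ⟨z', d, hd, hz'⟩ := C.pt hw0
  have hz'b : z' ≠ b := by
    rintro rfl
    have := (C.coef hbz (a := k * φ (v z) - d) (b := 1) (by
      rw [one_smul, sub_smul, ← hz']; abel)).2
    exact one_ne_zero this
  have hvz' : v z' = d⁻¹ • (v z + (k * φ (v z)) • v b) := by
    rw [hz', smul_smul, inv_mul_cancel₀ hd, one_smul]
  obtain ⟨h, hhb, hhz, hhfix⟩ := C.hT x n hn b ((hfix b).2 hb) z z'
    (fun h => hz ((hfix z).1 h)) hz'b (by
      rw [hvz']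
      exact smul_mem _ _ (add_mem (subset_span (by simp)) (smul_mem _ _ (subset_span (by simp)))))
  refine ⟨h, hhb, ?_⟩
  obtain ⟨ψ, hψb, hψ⟩ := C.form hhb h3
  have hle : ∀ w, φ w = 0 → ψ w = 0 := by
    intro w hw
    rcases eq_or_ne w 0 with rfl | hw0
    · rw [map_zero]
    obtain ⟨y, c, hc, rfl⟩ := C.pt hw0
    rw [map_smul, smul_eq_mul, mul_eq_zero] at hw
    rw [map_smul, (C.fix_iff hψb hψ y).1 (hhfix y ((hfix y).2 (hw.resolve_left hc))), smul_zero]
  have hψz : ψ (v z) = k * φ (v z) := by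
    obtain ⟨c, hc⟩ := hψ z
    rw [hhz, hvz'] at hc
    have hcoef := C.coef hbz (a := d⁻¹ * (k * φ (v z)) - c * ψ (v z)) (b := d⁻¹ - c) (by
      have : d⁻¹ • (v z + (k * φ (v z)) • v b) - c • (v z + ψ (v z) • v b) = 0 := by
        rw [hc, sub_self]
      rw [← this]
      module)
    have h5 : c = d⁻¹ := (sub_eq_zero.1 hcoef.2).symm
    have h6 : d⁻¹ * (k * φ (v z)) = d⁻¹ * ψ (v z) := by
      have := sub_eq_zero.1 hcoef.1
      rw [h5] at this
      exact this
    exact (mul_left_cancel₀ (inv_ne_zero hd) h6).symm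
  have hψφ : ∀ w, ψ w = k * φ w := by
    intro w
    have e : φ (w - (φ w / φ (v z)) • v z) = 0 := by
      rw [map_sub, map_smul, smul_eq_mul, div_mul_cancel₀ _ hz, sub_self]
    have e2 := hle _ e
    rw [map_sub, map_smul, smul_eq_mul, hψz, sub_eq_zero] at e2
    rw [e2]
    field_simp
  intro y
  obtain ⟨c, hc⟩ := hψ y
  exact ⟨c, by rw [hc, hψφ]⟩

omit C in
lemma isAx_zero [Nonempty X] : IsAx v N (0 : Dual K V) := by
  obtain ⟨x⟩ := ‹Nonempty X›
  exact ⟨x, 1, one_mem _, fun y => by simp⟩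

omit C in
lemma isAx_smul [Nonempty X] {φ : Dual K V} (h : IsAx v N φ) (a : K) : IsAx v N (a • φ) := by
  rcases eq_or_ne a 0 with rfl | ha
  · rw [zero_smul]; exact isAx_zero
  obtain ⟨x, n, hn, hfix⟩ := h
  exact ⟨x, n, hn, fun y => by rw [hfix]; simp [ha]⟩

lemma Cfg.isAx_add [Nonempty X] (h3 : 3 ≤ finrank K V) {φ₁ φ₂ : Dual K V} (h1 : IsAx v N φ₁)
    (h2 : IsAx v N φ₂) : IsAx v N (φ₁ + φ₂) := by
  by_cases hle : ∀ w, φ₁ w = 0 → φ₂ w = 0
  · -- proportional
    by_cases h0 : φ₁ = 0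
    · rw [h0, zero_add]; exact h2
    obtain ⟨z, hz⟩ : ∃ z, φ₁ z ≠ 0 := by
      by_contra hcon
      push Not at hcon
      exact h0 (LinearMap.ext hcon)
    have : φ₁ + φ₂ = (1 + φ₂ z / φ₁ z) • φ₁ := by
      ext w
      have e : φ₁ (w - (φ₁ w / φ₁ z) • z) = 0 := by
        rw [map_sub, map_smul, smul_eq_mul, div_mul_cancel₀ _ hz, sub_self]
      have e2 := hle _ e
      rw [map_sub, map_smul, smul_eq_mul, sub_eq_zero] at e2
      rw [LinearMap.add_apply, LinearMap.smul_apply, e2, smul_eq_mul]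
      field_simp
    rw [this]
    exact isAx_smul h1 _
  push Not at hle
  obtain ⟨w, hw1, hw2⟩ := hle
  have hw0 : w ≠ 0 := by rintro rfl; exact hw2 (map_zero _)
  obtain ⟨b, c, hc, rfl⟩ := C.pt hw0
  rw [map_smul, smul_eq_mul] at hw1 hw2
  have hb1 : φ₁ (v b) = 0 := (mul_eq_zero.1 hw1).resolve_left hc
  have hb2 : φ₂ (v b) ≠ 0 := right_ne_zero_of_mul hw2
  obtain ⟨h, hh, hform⟩ := C.elation h3 h1 hb1 (-(φ₂ (v b))⁻¹)
  obtain ⟨x, n, hn, hfix⟩ := h2
  refine ⟨h • x, h * n * h⁻¹, C.hconj h x n hn, fun y => ?_⟩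
  have e1 : (h * n * h⁻¹) • y = y ↔ n • (h⁻¹ • y) = h⁻¹ • y := by
    rw [mul_smul, mul_smul, smul_eq_iff_eq_inv_smul]
  rw [e1, hfix]
  obtain ⟨d, hd⟩ := hform (h⁻¹ • y)
  rw [smul_inv_smul] at hd
  set y' := h⁻¹ • y with hy'
  have hd0 : d ≠ 0 := by
    rintro rfl
    rw [zero_smul] at hd
    exact C.hv0 y hd
  have e3 : φ₁ (v y) = d * φ₁ (v y') := by
    rw [hd, map_smul, map_add, map_smul, hb1, smul_zero, add_zero, smul_eq_mul]
  have e4 : φ₂ (v y) = d * (φ₂ (v y') - φ₁ (v y')) := by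
    rw [hd, map_smul, map_add, map_smul, smul_eq_mul, smul_eq_mul]
    congr 1
    field_simp
    ring
  rw [LinearMap.add_apply, e3, e4]
  have e5 : d * φ₁ (v y') + d * (φ₂ (v y') - φ₁ (v y')) = d * φ₂ (v y') := by ring
  rw [e5, mul_eq_zero]
  exact ⟨fun h => Or.inr h, fun h => h.resolve_left hd0⟩

/-- Every form is an axis form. -/
theorem Cfg.isAx_all [Nonempty X] (h3 : 3 ≤ finrank K V) (htr : ∀ x y : X, ∃ g : G, g • x = y)
    (hne : ∃ x, ∃ n ∈ N x, ∃ y : X, n • y ≠ y) (φ : Dual K V) : IsAx v N φ := by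
  classical
  have hfd : FiniteDimensional K V := FiniteDimensional.of_finrank_pos (by omega)
  let F : Submodule K (Dual K V) :=
    { carrier := {φ | IsAx v N φ}
      zero_mem' := isAx_zero
      add_mem' := fun h1 h2 => C.isAx_add h3 h1 h2
      smul_mem' := fun a _ h => isAx_smul h a }
  have hF : F = ⊤ := by
    by_contra hF
    have h4 := Subspace.finrank_add_finrank_dualCoannihilator_eq F
    have h5 : finrank K F < finrank K V := by
      rw [← Subspace.dual_finrank_eq (K := K) (V := V)]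
      exact Submodule.finrank_lt hF
    have h6 : F.dualCoannihilator ≠ ⊥ := by
      intro h
      rw [h, finrank_bot] at h4
      omega
    obtain ⟨w, hw, hw0⟩ := Submodule.exists_mem_ne_zero_of_ne_bot h6
    rw [Submodule.mem_dualCoannihilator] at hw
    obtain ⟨y₀, c, hc, rfl⟩ := C.pt hw0
    have hy0 : ∀ φ : Dual K V, IsAx v N φ → φ (v y₀) = 0 := by
      intro φ hφ
      have := hw φ hφ
      rw [map_smul, smul_eq_mul, mul_eq_zero] at this
      exact this.resolve_left hc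
    obtain ⟨x, n, hn, y, hy⟩ := hne
    obtain ⟨g, hg⟩ := htr y y₀
    have hn' := C.hconj g x n hn
    obtain ⟨ψ, hψ0, hψ⟩ := C.form hn' h3
    have h7 : IsAx v N ψ := ⟨g • x, _, hn', fun y => C.fix_iff hψ0 hψ y⟩
    have h8 : (g * n * g⁻¹) • y₀ = y₀ := (C.fix_iff hψ0 hψ y₀).2 (hy0 ψ h7)
    rw [← hg, mul_smul, mul_smul, inv_smul_smul] at h8
    exact hy (smul_left_cancel g h8)
  have : φ ∈ F := by rw [hF]; trivial
  exact this

/-- All transvections occur. -/
theorem Cfg.transv [Nonempty X] (h3 : 3 ≤ finrank K V) (htr : ∀ x y : X, ∃ g : G, g • x = y)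
    (hne : ∃ x, ∃ n ∈ N x, ∃ y : X, n • y ≠ y) (φ : Dual K V) (w : V) (hw : φ w = 0) :
    ∃ b, ∃ h ∈ N b, ∀ y, ∃ c : K, v (h • y) = c • (v y + φ (v y) • w) := by
  rcases eq_or_ne w 0 with rfl | hw0
  · obtain ⟨x⟩ := ‹Nonempty X›
    exact ⟨x, 1, one_mem _, fun y => ⟨1, by simp⟩⟩
  obtain ⟨b, c, hc, rfl⟩ := C.pt hw0
  rw [map_smul, smul_eq_mul, mul_eq_zero] at hw
  obtain ⟨h, hh, hform⟩ := C.elation h3 (C.isAx_all h3 htr hne φ) (hw.resolve_left hc) c
  refine ⟨b, h, hh, fun y => ?_⟩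
  obtain ⟨d, hd⟩ := hform y
  exact ⟨d, by rw [hd, smul_smul, mul_comm c]⟩

end H48.Pid
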