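import Mathlib
import Cfsg.Agent.Lib.H48.Pid2
import Cfsg.Agent.Lib.H6.SLGen

set_option autoImplicit false

/-! Groups generated by elations of a projective space: identification with `PSL_n`. -/

namespace H48.Pid

open Module Submodule Matrix

section coords

variable {G X : Type*} [Group G] [MulAction G X] {K : Type*} [Field K] {m : ℕ}
  {v : X → (Fin m → K)} {N : X → Subgroup G}

/-- the matrix `M` and the group element `t` agree on points. -/
def Rel (v : X → (Fin m → K)) (M : SpecialLinearGroup (Fin m) K) (t : G) : Prop :=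
  ∀ y : X, ∃ c : K, v (t • y) = c • (M.1 *ᵥ v y)

lemma rel_one : Rel v (1 : SpecialLinearGroup (Fin m) K) (1 : G) := fun y => ⟨1, by simp⟩

lemma rel_mul {M M' : SpecialLinearGroup (Fin m) K} {t t' : G} (h : Rel v M t) (h' : Rel v M' t') :
    Rel v (M * M') (t * t') := by
  intro y
  obtain ⟨c', hc'⟩ := h' y
  obtain ⟨c, hc⟩ := h (t' • y)
  refine ⟨c * c', ?_⟩
  rw [mul_smul, hc, hc', mulVec_smul, smul_smul, mulVec_mulVec]
  rfl

lemma inv_mulVec' (M : SpecialLinearGroup (Fin m) K) (w : Fin m → K) :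
    (M⁻¹).1 *ᵥ (M.1 *ᵥ w) = w := by
  rw [mulVec_mulVec]
  have : (M⁻¹).1 * M.1 = 1 := by
    have h := congrArg Subtype.val (inv_mul_cancel M)
    exact h
  rw [this, one_mulVec]

lemma rel_inv (C : Cfg K v N) {M : SpecialLinearGroup (Fin m) K} {t : G} (h : Rel v M t) :
    Rel v M⁻¹ t⁻¹ := by
  intro y
  obtain ⟨c, hc⟩ := h (t⁻¹ • y)
  rw [smul_inv_smul] at hc
  have hc0 : c ≠ 0 := by
    rintro rfl
    rw [zero_smul] at hc
    exact C.hv0 y hc
  refine ⟨c⁻¹, ?_⟩
  rw [hc, mulVec_smul, inv_mulVec', smul_smul, inv_mul_cancel₀ hc0, one_smul]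

lemma rel_unique (C : Cfg K v N) [FaithfulSMul G X] {M : SpecialLinearGroup (Fin m) K} {t t' : G}
    (h : Rel v M t) (h' : Rel v M t') : t = t' := by
  apply FaithfulSMul.eq_of_smul_eq_smul (α := X)
  intro y
  obtain ⟨c, hc⟩ := h y
  obtain ⟨c', hc'⟩ := h' y
  have hc0 : c' ≠ 0 := by
    rintro rfl
    rw [zero_smul] at hc'
    exact C.hv0 _ hc'
  refine C.hinj _ _ ⟨c * c'⁻¹, ?_⟩
  rw [hc', smul_smul, inv_mul_cancel_right₀ hc0, hc]

/-- the transvection matrix. -/
lemma exists_tv (φ : Dual K (Fin m → K)) (u : Fin m → K) (h : φ u = 0) :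
    ∃ M : SpecialLinearGroup (Fin m) K, ∀ w, M.1 *ᵥ w = w + φ w • u := by
  classical
  have key : ∀ w : Fin m → K, (fun j => φ (Pi.single j 1)) ⬝ᵥ w = φ w := by
    intro w
    conv_rhs => rw [pi_eq_sum_univ' w]
    rw [map_sum]
    simp only [dotProduct, map_smul, smul_eq_mul]
    refine Finset.sum_congr rfl fun i _ => ?_
    rw [mul_comm]
  refine ⟨⟨1 + vecMulVec u (fun j => φ (Pi.single j 1)), ?_⟩, fun w => ?_⟩
  · rw [vecMulVec_eq Unit, det_one_add_replicateCol_mul_replicateRow, key, h, add_zero]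
  · change (1 + vecMulVec u (fun j => φ (Pi.single j 1))) *ᵥ w = _
    rw [add_mulVec, one_mulVec, vecMulVec_mulVec, key]
    congr 1
    ext i
    simp [mul_comm]

theorem main' [FaithfulSMul G X] [Nonempty X] (C : Cfg K v N) (h3 : 3 ≤ m)
    (htr : ∀ x y : X, ∃ g : G, g • x = y) (hNne : ∀ x, ∃ n ∈ N x, n ≠ 1) :
    ∃ T : Subgroup G, T.Normal ∧ Subgroup.centralizer (T : Set G) = ⊥ ∧
      (∀ x, N x ≤ T) ∧
      Nonempty (T ≃* ProjectiveSpecialLinearGroup (Fin m) K) := by
  classical
  have hfr : 3 ≤ finrank K (Fin m → K) := by simpa using h3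
  have hmove : ∀ n : G, n ≠ 1 → ∃ y : X, n • y ≠ y := by
    intro n hn
    by_contra hcon
    push Not at hcon
    apply hn
    apply FaithfulSMul.eq_of_smul_eq_smul (α := X)
    intro y
    rw [one_smul]; exact hcon y
  have hne : ∃ x, ∃ n ∈ N x, ∃ y : X, n • y ≠ y := by
    obtain ⟨x⟩ := ‹Nonempty X›
    obtain ⟨n, hn, hn1⟩ := hNne x
    exact ⟨x, n, hn, hmove n hn1⟩
  set T : Subgroup G := Subgroup.closure {g | ∃ x, g ∈ N x} with hTdef
  have hNT : ∀ x, N x ≤ T := fun x g hg => Subgroup.subset_closure ⟨x, hg⟩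
  -- normality
  have hTn : T.Normal := by
    refine ⟨fun t ht g => ?_⟩
    induction ht using Subgroup.closure_induction with
    | mem t ht =>
      obtain ⟨x, hx⟩ := ht
      exact Subgroup.subset_closure ⟨g • x, C.hconj g x t hx⟩
    | one => rw [mul_one, mul_inv_cancel]; exact T.one_mem
    | mul a b _ _ ha hb =>
      have : g * (a * b) * g⁻¹ = (g * a * g⁻¹) * (g * b * g⁻¹) := by group
      rw [this]; exact T.mul_mem ha hb
    | inv a _ ha =>
      have : g * a⁻¹ * g⁻¹ = (g * a * g⁻¹)⁻¹ := by group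
      rw [this]; exact T.inv_mem ha
  -- the centralizer
  have hTc : Subgroup.centralizer (T : Set G) = ⊥ := by
    rw [eq_bot_iff]
    intro g hg
    rw [Subgroup.mem_centralizer_iff] at hg
    rw [Subgroup.mem_bot]
    apply FaithfulSMul.eq_of_smul_eq_smul (α := X)
    intro x
    rw [one_smul]
    by_contra hgx
    obtain ⟨n, hn, hn1⟩ := hNne x
    have hcomm := hg n (hNT x hn)
    have hn' : n ∈ N (g • x) := by
      have := C.hconj g x n hn
      rwa [← hcomm, mul_inv_cancel_right] at this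
    obtain ⟨φ, hφ0, hφ⟩ := C.form hn hfr
    obtain ⟨ψ, hψ0, hψ⟩ := C.form hn' hfr
    obtain ⟨y, hy⟩ := hmove n hn1
    have hφy : φ (v y) ≠ 0 := fun h => hy ((C.fix_iff hφ0 hφ y).2 h)
    have hψy : ψ (v y) ≠ 0 := fun h => hy ((C.fix_iff hψ0 hψ y).2 h)
    obtain ⟨c, hc⟩ := hφ y
    obtain ⟨d, hd⟩ := hψ y
    have hc0 : c ≠ 0 := by
      rintro rfl
      rw [zero_smul] at hc
      exact C.hv0 _ hc
    have hφgx : φ (v (g • x)) = 0 := by
      rw [← C.fix_iff hφ0 hφ]
      exact C.hNx _ n hn'
    have e1 : (c * φ (v y)) = d * φ (v y) := by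
      have h1 : φ (v (n • y)) = c * φ (v y) := by
        rw [hc, map_smul, map_add, map_smul, hφ0, smul_zero, add_zero, smul_eq_mul]
      have h2 : φ (v (n • y)) = d * φ (v y) := by
        rw [hd, map_smul, map_add, map_smul, hφgx, smul_zero, add_zero, smul_eq_mul]
      rw [← h1, ← h2]
    have e2 : c = d := mul_right_cancel₀ hφy e1
    rw [hd, e2] at hc
    have hd0 : d ≠ 0 := e2 ▸ hc0
    have e3 := smul_right_injective _ hd0 hc
    have e4 : φ (v y) • v x = ψ (v y) • v (g • x) := (add_left_cancel e3).symm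
    apply hgx
    refine C.hinj _ _ ⟨(ψ (v y))⁻¹ * φ (v y), ?_⟩
    rw [← smul_smul, e4, smul_smul, inv_mul_cancel₀ hψy, one_smul]
  -- the homomorphism
  have hex : ∀ M : SpecialLinearGroup (Fin m) K, ∃ t ∈ T, Rel v M t := by
    have : Nontrivial (Fin m) := Fin.nontrivial_iff_two_le.2 (by omega)
    let H : Subgroup (SpecialLinearGroup (Fin m) K) :=
      { carrier := {M | ∃ t ∈ T, Rel v M t}
        one_mem' := ⟨1, T.one_mem, rel_one⟩
        mul_mem' := by
          rintro M M' ⟨t, ht, h⟩ ⟨t', ht', h'⟩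
          exact ⟨t * t', T.mul_mem ht ht', rel_mul h h'⟩
        inv_mem' := by
          rintro M ⟨t, ht, h⟩
          exact ⟨t⁻¹, T.inv_mem ht, rel_inv C h⟩ }
    have hH : H = ⊤ := by
      refine H6.SLGen.eq_top_of_transvection_mem H fun i j hij c => ?_
      obtain ⟨b, h, hh, hform⟩ := C.transv hfr htr hne (c • LinearMap.proj j) (Pi.single i 1)
        (by simp [hij.symm])
      refine ⟨h, hNT b hh, fun y => ?_⟩
      obtain ⟨d, hd⟩ := hform y
      refine ⟨d, ?_⟩
      rw [hd]
      congr 1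
      have : (SpecialLinearGroup.transvection hij c).1 = 1 + single i j c := rfl
      rw [this, add_mulVec, one_mulVec, single_mulVec_eq]
      congr 1
    intro M
    have : M ∈ H := by rw [hH]; trivial
    exact this
  choose f hfT hf using hex
  let F : SpecialLinearGroup (Fin m) K →* G :=
    MonoidHom.mk' f (fun M M' => rel_unique C (hf _) (rel_mul (hf M) (hf M')))
  have hrange : F.range = T := by
    apply le_antisymm
    · rintro _ ⟨M, rfl⟩
      exact hfT M
    · rw [hTdef, Subgroup.closure_le]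
      rintro n ⟨x, hn⟩
      obtain ⟨φ, hφ0, hφ⟩ := C.form hn hfr
      obtain ⟨M, hM⟩ := exists_tv φ (v x) hφ0
      refine ⟨M, rel_unique C (hf M) ?_⟩
      intro y
      obtain ⟨c, hc⟩ := hφ y
      exact ⟨c, by rw [hc, hM]⟩
  have hker : F.ker = Subgroup.center (SpecialLinearGroup (Fin m) K) := by
    ext M
    rw [MonoidHom.mem_ker]
    constructor
    · intro hM
      have hr : Rel v M (1 : G) := by
        have := hf M
        rwa [show f M = 1 from hM] at this
      have hev : ∀ w : Fin m → K, ∃ c : K, M.1 *ᵥ w = c • w := by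
        intro w
        rcases eq_or_ne w 0 with rfl | hw
        · exact ⟨0, by simp⟩
        obtain ⟨y, c, hc, rfl⟩ := C.pt hw
        obtain ⟨d, hd⟩ := hr y
        rw [one_smul] at hd
        have hd0 : d ≠ 0 := by
          rintro rfl
          rw [zero_smul] at hd
          exact C.hv0 _ hd
        refine ⟨d⁻¹, ?_⟩
        rw [mulVec_smul, smul_comm]
        congr 1
        conv_rhs => rw [hd]
        rw [smul_smul, inv_mul_cancel₀ hd0, one_smul]
      have hoff : ∀ a b, a ≠ b → M.1 a b = 0 := by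
        intro a b hab
        obtain ⟨c, hc⟩ := hev (Pi.single b 1)
        have := congrFun hc a
        rw [mulVec_single_one] at this
        simpa [hab] using this
      have hdiag : ∀ a b, M.1 a a = M.1 b b := by
        intro a b
        rcases eq_or_ne a b with rfl | hab
        · rfl
        obtain ⟨c, hc⟩ := hev (Pi.single a 1 + Pi.single b 1)
        rw [mulVec_add, mulVec_single_one, mulVec_single_one] at hc
        have h1 := congrFun hc a
        have h2 := congrFun hc b
        simp [hab, hab.symm, hoff a b hab, hoff b a hab.symm] at h1 h2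
        rw [h1, h2]
      have i0 : Fin m := ⟨0, by omega⟩
      have hM' : M.1 = scalar (Fin m) (M.1 i0 i0) := by
        ext a b
        rcases eq_or_ne a b with rfl | hab
        · simp [hdiag a i0]
        · simp [hab, hoff a b hab]
      rw [Subgroup.mem_center_iff]
      intro B
      apply Subtype.ext
      change B.1 * M.1 = M.1 * B.1
      rw [hM']
      exact ((scalar_commute (n := Fin m) _ (Commute.all _) B.1).symm).eq
    · intro hM
      obtain ⟨r, hr, hrM⟩ := Matrix.SpecialLinearGroup.mem_center_iff.1 hM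
      refine rel_unique C (hf M) ?_
      intro y
      have hr0 : r ≠ 0 := by
        rintro rfl
        rw [zero_pow (by simp; omega)] at hr
        exact zero_ne_one hr
      refine ⟨r⁻¹, ?_⟩
      rw [one_smul, ← hrM]
      simp [smul_smul, hr0]
  refine ⟨T, hTn, hTc, hNT, ⟨?_⟩⟩
  have e1 : (SpecialLinearGroup (Fin m) K ⧸ F.ker) ≃* F.range := QuotientGroup.quotientKerEquivRange F
  have e2 : (SpecialLinearGroup (Fin m) K ⧸ Subgroup.center (SpecialLinearGroup (Fin m) K)) ≃*
      (SpecialLinearGroup (Fin m) K ⧸ F.ker) := QuotientGroup.quotientMulEquivOfEq hker.symm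
  exact ((MulEquiv.subgroupCongr hrange).symm.trans e1.symm).trans e2.symm

end coords

/-- **Identification theorem.**  A group acting faithfully and transitively on the points of a
projective space of dimension at least two (the point `x` is spanned by `v x`) by collineations,
with a conjugation invariant family of non-trivial groups `N x` of collineations with centre `x`
and with `full` axis property `hT`, has a normal subgroup isomorphic to `PSL_n(K)` with trivial
centralizer. -/
theorem main {G X : Type*} [Group G] [MulAction G X] [FaithfulSMul G X]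
    (htr : ∀ x y : X, ∃ g : G, g • x = y)
    {K V : Type*} [Field K] [AddCommGroup V] [Module K V]
    (h3 : 3 ≤ Module.finrank K V)
    (v : X → V) (hv0 : ∀ x, v x ≠ 0) (hv : ∀ w : V, w ≠ 0 → ∃ x, ∃ c : K, w = c • v x)
    (hinj : ∀ x y, (∃ c : K, v x = c • v y) → x = y)
    (hcol : ∀ (g : G) (x y z : X), v z ∈ span K {v x, v y} → v (g • z) ∈ span K {v (g • x), v (g • y)})
    (N : X → Subgroup G)
    (hconj : ∀ (g : G) (x : X) (n : G), n ∈ N x → g * n * g⁻¹ ∈ N (g • x))
    (hNx : ∀ x, ∀ n ∈ N x, n • x = x) (hNne : ∀ x, ∃ n ∈ N x, n ≠ 1)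
    (hline : ∀ x, ∀ n ∈ N x, ∀ y, v (n • y) ∈ span K {v x, v y})
    (hax : ∀ x, ∀ n ∈ N x, ∀ y z, y ≠ z → ∃ u, n • u = u ∧ v u ∈ span K {v y, v z})
    (hT : ∀ x, ∀ n ∈ N x, ∀ b, n • b = b → ∀ z z', n • z ≠ z → z' ≠ b → v z' ∈ span K {v b, v z} →
      ∃ h ∈ N b, h • z = z' ∧ ∀ y : X, n • y = y → h • y = y) :
    ∃ T : Subgroup G, T.Normal ∧ Subgroup.centralizer (T : Set G) = ⊥ ∧ (∀ x, N x ≤ T) ∧
      Nonempty (T ≃* Matrix.ProjectiveSpecialLinearGroup (Fin (Module.finrank K V)) K) := by
  classical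
  have : FiniteDimensional K V := FiniteDimensional.of_finrank_pos (by omega)
  let e : V ≃ₗ[K] (Fin (Module.finrank K V) → K) := (Module.finBasis K V).equivFun
  have hmem : ∀ a b c : V, e a ∈ span K {e b, e c} ↔ a ∈ span K {b, c} := by
    intro a b c
    rw [mem_span_pair, mem_span_pair]
    constructor
    · rintro ⟨p, q, h⟩
      exact ⟨p, q, e.injective (by rw [← h]; simp)⟩
    · rintro ⟨p, q, h⟩
      exact ⟨p, q, by rw [← h]; simp⟩
  have C : Cfg K (fun x => e (v x)) N :=
    { hv0 := fun x h => hv0 x (by simpa using h)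
      hv := by
        intro w hw
        obtain ⟨x, c, h⟩ := hv (e.symm w) (by simpa using hw)
        exact ⟨x, c, by rw [← map_smul, ← h, LinearEquiv.apply_symm_apply]⟩
      hinj := by
        rintro x y ⟨c, h⟩
        exact hinj x y ⟨c, e.injective (by rw [h, map_smul])⟩
      hcol := fun g x y z h => (hmem _ _ _).2 (hcol g x y z ((hmem _ _ _).1 h))
      hconj := hconj
      hNx := hNx
      hline := fun x n hn y => (hmem _ _ _).2 (hline x n hn y)
      hax := by
        intro x n hn y z hyz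
        obtain ⟨u, hu, hu'⟩ := hax x n hn y z hyz
        exact ⟨u, hu, (hmem _ _ _).2 hu'⟩
      hT := fun x n hn b hb z z' hz hz' h => hT x n hn b hb z z' hz hz' ((hmem _ _ _).1 h) }
  have : Nontrivial V := Module.nontrivial_of_finrank_pos (R := K) (by omega)
  have : Nonempty X := by
    obtain ⟨w, hw⟩ := exists_ne (0 : V)
    obtain ⟨x, _⟩ := hv w hw
    exact ⟨x⟩
  exact main' C h3 htr hNne

end H48.Pid
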