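import Mathlib
import Cfsg.Agent.Lib.H54.RA0

/-! Piece U2 of S3330 (helper48). -/

set_option autoImplicit false
set_option maxRecDepth 100000

open Equiv Subgroup H54.RA

namespace H48.RU2

/-- the statement of P6 -/
def P6 : Prop := ∀ (φ : Perm (Fin 5) →* Perm (Fin 6)) (_ : Function.Injective φ) (a : Perm (Fin 6)) (_ : a * a = 1)
    (_ : a * φ (swap 1 2) = φ (swap 1 2) * a) (_ : a * φ (swap 2 3) = φ (swap 2 3) * a) (_ : (a * φ t5) ^ 3 = 1)
    (_ : a ≠ φ t5) (j : Fin 5) (_ : j = 1 ∨ j = 3),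
    (a * φ (swap j 4) = φ (swap j 4) * a ∧ ((φ t5 * a * φ t5) * φ (swap j 4)) ^ 3 = 1 ∧
      (φ t5 * a * φ t5) * φ (swap j 4) ≠ 1) ∨
    ((φ t5 * a * φ t5) * φ (swap j 4) = φ (swap j 4) * (φ t5 * a * φ t5) ∧ (a * φ (swap j 4)) ^ 3 = 1 ∧
      a * φ (swap j 4) ≠ 1)

theorem app {G : Type*} [Group G] (hp6 : P6) {u : G} (hu : S6 u) (N : Perm (Fin 5) →* G)
    (hN : ∀ σ, N σ * u = u * N σ) (hNi : ∀ σ, (N σ = 1 ∨ N σ = u) → σ = 1) (a : G) (hau : a * u = u * a)
    (haa : a * a = 1) (h1 : a * N (swap 1 2) = N (swap 1 2) * a) (h2 : a * N (swap 2 3) = N (swap 2 3) * a)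
    (h3 : (a * N t5) ^ 3 = 1) (hne1 : a * N t5 ≠ 1) (hne2 : a * N t5 ≠ u) (j : Fin 5) (hj : j = 1 ∨ j = 3) :
    ((a * N (swap j 4) * (N (swap j 4) * a)⁻¹ = 1 ∨ a * N (swap j 4) * (N (swap j 4) * a)⁻¹ = u) ∧
      (((N t5 * a * N t5) * N (swap j 4)) ^ 3 = 1 ∨ ((N t5 * a * N t5) * N (swap j 4)) ^ 3 = u) ∧
      (N t5 * a * N t5) * N (swap j 4) ≠ 1 ∧ (N t5 * a * N t5) * N (swap j 4) ≠ u) ∨
    (((N t5 * a * N t5) * N (swap j 4) * (N (swap j 4) * (N t5 * a * N t5))⁻¹ = 1 ∨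
      (N t5 * a * N t5) * N (swap j 4) * (N (swap j 4) * (N t5 * a * N t5))⁻¹ = u) ∧
      ((a * N (swap j 4)) ^ 3 = 1 ∨ (a * N (swap j 4)) ^ 3 = u) ∧
      a * N (swap j 4) ≠ 1 ∧ a * N (swap j 4) ≠ u) := by
  obtain ⟨π, -, hπ⟩ := hu
  have hmem : ∀ g : G, g * u = u * g → g ∈ centralizer ({u} : Set G) := by
    intro g hg
    rw [Subgroup.mem_centralizer_singleton_iff]
    exact hg
  let Nc : Perm (Fin 5) →* centralizer ({u} : Set G) := N.codRestrict _ (fun σ => hmem _ (hN σ))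
  have hNc : ∀ σ, ((Nc σ : centralizer ({u} : Set G)) : G) = N σ := fun σ => rfl
  let a' : centralizer ({u} : Set G) := ⟨a, hmem _ hau⟩
  have ha' : (a' : G) = a := rfl
  have hinj : Function.Injective (π.comp Nc) := by
    rw [injective_iff_map_eq_one]
    intro σ hσ
    exact hNi σ ((hπ (Nc σ)).mp hσ)
  have hNt : N t5 * N t5 = 1 := by
    rw [← map_mul, show t5 * t5 = 1 by decide +kernel, map_one]
  have hc : ∀ x y : centralizer ({u} : Set G), (x : G) = y → π x = π y := fun x y hxy => by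
    rw [Subtype.ext hxy]
  have key := hp6 (π.comp Nc) hinj (π a')
    (by rw [← map_mul, ← map_one π]; exact hc _ _ haa)
    (by
      change π a' * π (Nc _) = π (Nc _) * π a'
      rw [← map_mul, ← map_mul]; exact hc _ _ h1)
    (by
      change π a' * π (Nc _) = π (Nc _) * π a'
      rw [← map_mul, ← map_mul]; exact hc _ _ h2)
    (by
      change (π a' * π (Nc _)) ^ 3 = 1
      rw [← map_mul, ← map_pow, ← map_one π]; exact hc _ _ h3)
    (by
      intro he
      have h4 : π (a' * Nc t5) = 1 := by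
        rw [map_mul, he]
        change π (Nc t5) * π (Nc t5) = 1
        rw [← map_mul, ← map_one π]
        exact hc _ _ hNt
      rcases (hπ _).mp h4 with h5 | h5
      · exact hne1 h5
      · exact hne2 h5) j hj
  have hto : ∀ x : centralizer ({u} : Set G), π x = 1 → ((x : G) = 1 ∨ (x : G) = u) := fun x => (hπ x).mp
  have hfrom : ∀ x : centralizer ({u} : Set G), π x ≠ 1 → ((x : G) ≠ 1 ∧ (x : G) ≠ u) := fun x hx =>
    ⟨fun he => hx ((hπ x).mpr (Or.inl he)), fun he => hx ((hπ x).mpr (Or.inr he))⟩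
  rcases key with ⟨k1, k2, k3⟩ | ⟨k1, k2, k3⟩
  · left
    refine ⟨hto (a' * Nc (swap j 4) * (Nc (swap j 4) * a')⁻¹) ?_, hto ((Nc t5 * a' * Nc t5 * Nc (swap j 4)) ^ 3) ?_,
      hfrom (Nc t5 * a' * Nc t5 * Nc (swap j 4)) ?_⟩
    · rw [map_mul, map_inv, map_mul, map_mul, mul_inv_eq_one]
      exact k1
    · rw [map_pow, map_mul, map_mul, map_mul]
      exact k2
    · rw [map_mul, map_mul, map_mul]
      exact k3
  · right
    refine ⟨hto (Nc t5 * a' * Nc t5 * Nc (swap j 4) * (Nc (swap j 4) * (Nc t5 * a' * Nc t5))⁻¹) ?_,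
      hto ((a' * Nc (swap j 4)) ^ 3) ?_, hfrom (a' * Nc (swap j 4)) ?_⟩
    · rw [map_mul, map_inv, mul_inv_eq_one]
      simp only [map_mul]
      exact k1
    · rw [map_pow, map_mul]
      exact k2
    · rw [map_mul]
      exact k3

/-- the final combination -/
theorem comb {G : Type*} [Group G] {r s q : G} (hr : r * r = 1) (hs : s * s = 1)
    (h3 : q ^ 3 = 1 ∨ q ^ 3 = r) (h2 : q ^ 2 = 1 ∨ q ^ 2 = s) (hq1 : q ≠ 1) (hqr : q ≠ r) : False := by
  have h6 : q ^ 6 = 1 := by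
    rcases h3 with h | h
    · rw [show (6 : ℕ) = 3 * 2 from rfl, pow_mul, h, one_pow]
    · rw [show (6 : ℕ) = 3 * 2 from rfl, pow_mul, h, pow_two, hr]
  have h4 : q ^ 4 = 1 := by
    rcases h2 with h | h
    · rw [show (4 : ℕ) = 2 * 2 from rfl, pow_mul, h, one_pow]
    · rw [show (4 : ℕ) = 2 * 2 from rfl, pow_mul, h, pow_two, hs]
  have h22 : q ^ 2 = 1 := by
    have := h6
    rw [show (6 : ℕ) = 4 + 2 from rfl, pow_add, h4, one_mul] at this
    exact this
  have h33 : q ^ 3 = q := by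
    rw [pow_succ, h22, one_mul]
  rw [h33] at h3
  rcases h3 with h | h
  · exact hq1 h
  · exact hqr h

theorem inv_sq {G : Type*} [Group G] {x y s : G} (hx : x * x = 1) (hy : y * y = 1) (hs : s * s = 1)
    (h : y * x * (x * y)⁻¹ = 1 ∨ y * x * (x * y)⁻¹ = s) : (x * y) ^ 2 = 1 ∨ (x * y) ^ 2 = s := by
  have hxi : x⁻¹ = x := inv_eq_of_mul_eq_one_left hx
  have hyi : y⁻¹ = y := inv_eq_of_mul_eq_one_left hy
  have h1 : y * x = (x * y)⁻¹ := by rw [mul_inv_rev, hxi, hyi]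
  have hsi : s⁻¹ = s := inv_eq_of_mul_eq_one_left hs
  have h2 : (y * x * (x * y)⁻¹)⁻¹ = (x * y) ^ 2 := by
    rw [h1, pow_two, mul_inv_rev, inv_inv]
  rcases h with h | h
  · left; rw [← h2, h, inv_one]
  · right; rw [← h2, h, hsi]

theorem flip {G : Type*} [Group G] {x y s : G} (hs : s * s = 1)
    (h : y * x * (x * y)⁻¹ = 1 ∨ y * x * (x * y)⁻¹ = s) : x * y * (y * x)⁻¹ = 1 ∨ x * y * (y * x)⁻¹ = s := by
  have hsi : s⁻¹ = s := inv_eq_of_mul_eq_one_left hs
  have h2 : (y * x * (x * y)⁻¹)⁻¹ = x * y * (y * x)⁻¹ := by group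
  rcases h with h | h
  · left; rw [← h2, h, inv_one]
  · right; rw [← h2, h, hsi]

theorem commOf {G : Type*} [Group G] {x y r s : G} (hrs : r ≠ s)
    (h1 : x * y * (y * x)⁻¹ = 1 ∨ x * y * (y * x)⁻¹ = r) (h2 : x * y * (y * x)⁻¹ = 1 ∨ x * y * (y * x)⁻¹ = s) :
    x * y = y * x := by
  rcases h1 with h | h
  · exact mul_inv_eq_one.mp h
  · rcases h2 with h' | h'
    · exact mul_inv_eq_one.mp h'
    · exact absurd (h.symm.trans h') hrs

theorem u2 {G : Type*} [Group G] [Finite G] {ψ : PP →* G} {n : G} (h : UD ψ n) (hr : S6 (ψ (swap 0 1, 1)))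
    (hs : S6 (ψ (1, swap 2 3)))
    (hp6 : ∀ (φ : Perm (Fin 5) →* Perm (Fin 6)) (_ : Function.Injective φ) (a : Perm (Fin 6)) (_ : a * a = 1)
      (_ : a * φ (swap 1 2) = φ (swap 1 2) * a) (_ : a * φ (swap 2 3) = φ (swap 2 3) * a) (_ : (a * φ t5) ^ 3 = 1)
      (_ : a ≠ φ t5) (j : Fin 5) (_ : j = 1 ∨ j = 3),
      (a * φ (swap j 4) = φ (swap j 4) * a ∧ ((φ t5 * a * φ t5) * φ (swap j 4)) ^ 3 = 1 ∧
        (φ t5 * a * φ t5) * φ (swap j 4) ≠ 1) ∨
      ((φ t5 * a * φ t5) * φ (swap j 4) = φ (swap j 4) * (φ t5 * a * φ t5) ∧ (a * φ (swap j 4)) ^ 3 = 1 ∧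
        a * φ (swap j 4) ≠ 1)) :
    ∃ a : G, (a = n * ψ (1, swap 3 0) * n⁻¹ ∨ a = n * ψ (1, swap 3 4) * n⁻¹) ∧
      a * ψ (1, swap 4 1) = ψ (1, swap 4 1) * a := by
  have hP : P6 := hp6
  let ι : Perm (Fin 5) →* G := ψ.comp (MonoidHom.inr (Perm (Fin 3)) (Perm (Fin 5)))
  have hι : ∀ σ, ι σ = ψ (1, σ) := fun σ => rfl
  let N : Perm (Fin 5) →* G := (MulAut.conj n).toMonoidHom.comp ι
  have hN : ∀ σ, N σ = n * ψ (1, σ) * n⁻¹ := fun σ => rfl
  have hιi : Function.Injective ι := by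
    intro x y hxy
    have := h.inj hxy
    exact (Prod.mk.inj this).2
  have hNi : Function.Injective N := (MulAut.conj n).injective.comp hιi
  have hnn : n⁻¹ = n := inv_eq_of_mul_eq_one_left h.nn
  -- commuting
  have hcm : ∀ (σ : Perm (Fin 3)) (τ : Perm (Fin 5)), ψ (σ, 1) * ψ (1, τ) = ψ (1, τ) * ψ (σ, 1) := by
    intro σ τ
    rw [← map_mul, ← map_mul, Prod.mk_mul_mk, Prod.mk_mul_mk, mul_one, one_mul, mul_one, one_mul]
  have hN12 : N (swap 1 2) = ψ (swap 0 1, 1) := h.n3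
  have hNd : N d5 = ψ (c3, 1) := h.n2
  have hN23 : N (swap 2 3) = ψ (swap 1 2, 1) := by
    have h1 : N d5 = N (swap 1 2) * N (swap 2 3) := by rw [← map_mul]; rfl
    rw [hNd, hN12] at h1
    have h2 : ψ (c3, 1) = ψ (swap 0 1, 1) * ψ (swap 1 2, 1) := by
      rw [← map_mul, Prod.mk_mul_mk, mul_one]; rfl
    rw [h2] at h1
    exact (mul_left_cancel h1).symm
  have hNt : N t5 = ι t5 := by
    rw [hN, hι, h.nt, mul_inv_cancel_right]
  have hM : ∀ (σ : Perm (Fin 3)) (τ : Perm (Fin 5)), N τ * (n * ψ (σ, 1) * n⁻¹) = (n * ψ (σ, 1) * n⁻¹) * N τ := by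
    intro σ τ
    rw [hN]
    calc n * ψ (1, τ) * n⁻¹ * (n * ψ (σ, 1) * n⁻¹) = n * (ψ (1, τ) * ψ (σ, 1)) * n⁻¹ := by group
      _ = n * (ψ (σ, 1) * ψ (1, τ)) * n⁻¹ := by rw [hcm]
      _ = _ := by group
  have hM12 : n * ψ (swap 0 1, 1) * n⁻¹ = ι (swap 1 2) := by
    rw [← hN12, hN, hι, hnn]
    calc n * (n * ψ (1, swap 1 2) * n) * n = (n * n) * ψ (1, swap 1 2) * (n * n) := by group
      _ = _ := by rw [h.nn, one_mul, mul_one]
  have hM23 : n * ψ (swap 1 2, 1) * n⁻¹ = ι (swap 2 3) := by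
    rw [← hN23, hN, hι, hnn]
    calc n * (n * ψ (1, swap 2 3) * n) * n = (n * n) * ψ (1, swap 2 3) * (n * n) := by group
      _ = _ := by rw [h.nn, one_mul, mul_one]
  set r : G := ψ (swap 0 1, 1) with hrdef
  set s : G := ψ (1, swap 2 3) with hsdef
  have hrr : r * r = 1 := by
    rw [hrdef, ← map_mul, ← map_one ψ]
    congr 1
    exact Prod.ext (swap_mul_self _ _) (mul_one _)
  have hss : s * s = 1 := by
    rw [hsdef, ← map_mul, ← map_one ψ]
    congr 1
    exact Prod.ext rfl (swap_mul_self _ _)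
  have hrs : r ≠ s := by
    intro he
    have h1 := h.inj he
    have h2 := (Prod.mk.inj h1).1
    exact absurd h2 (by decide +kernel)
  -- first application
  have A1 := app hP hr ι (fun σ => (hcm _ σ).symm)
    (by
      rintro σ (h1 | h1)
      · exact hιi (by rw [h1, map_one])
      · exfalso
        have h2 := h.inj h1
        exact absurd (Prod.mk.inj h2).1.symm (by decide +kernel)) (N (swap 3 0))
    (by rw [← hN12, ← map_mul, ← map_mul]; congr 1; decide +kernel)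
    (by rw [← map_mul, ← map_one N]; congr 1; decide +kernel)
    (by rw [← hM12]; exact hM _ _)
    (by rw [← hM23]; exact hM _ _)
    (by rw [← hNt, ← map_mul, ← map_pow, ← map_one N]; congr 1; decide +kernel)
    (by
      rw [← hNt, ← map_mul]
      intro he
      exact absurd (hNi (he.trans (map_one N).symm)) (by decide +kernel))
    (by
      rw [← hNt, ← map_mul, ← hN12]
      intro he
      exact absurd (hNi he) (by decide +kernel)) 1 (Or.inl rfl)
  -- second application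
  have A2 := app hP hs N (fun σ => by rw [hsdef, ← hι, ← hM23]; exact hM _ _)
    (by
      rintro σ (h1 | h1)
      · exact hNi (by rw [h1, map_one])
      · exfalso
        rw [hsdef, ← hι, ← hM23, hN] at h1
        have h2 := h.inj (mul_left_cancel (mul_right_cancel h1))
        exact absurd (Prod.mk.inj h2).1.symm (by decide +kernel)) (ι (swap 1 4))
    (by rw [hsdef, ← hι, ← map_mul, ← map_mul]; congr 1; decide +kernel)
    (by rw [← map_mul, ← map_one ι]; congr 1; decide +kernel)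
    (by rw [hN12]; exact (hcm _ _).symm)
    (by rw [hN23]; exact (hcm _ _).symm)
    (by rw [hNt, ← map_mul, ← map_pow, ← map_one ι]; congr 1; decide +kernel)
    (by
      rw [hNt, ← map_mul]
      intro he
      exact absurd (hιi (he.trans (map_one ι).symm)) (by decide +kernel))
    (by
      rw [hNt, ← map_mul, hsdef, ← hι]
      intro he
      exact absurd (hιi he) (by decide +kernel)) 3 (Or.inr rfl)
  set a0 : G := N (swap 3 0) with ha0
  set c4 : G := N (swap 3 4) with hc4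
  set b : G := ι (swap 1 4) with hb
  set t : G := ι t5 with ht
  have htt : t * t = 1 := by
    rw [ht, ← map_mul, ← map_one ι]; congr 1; decide +kernel
  have hts : t * s = s * t := by
    rw [ht, hsdef, ← hι, ← map_mul, ← map_mul]; congr 1; decide +kernel
  have htat : t * a0 * t = c4 := by
    rw [← hNt, ha0, hc4, ← map_mul, ← map_mul]; congr 1; decide +kernel
  have htct : t * c4 * t = a0 := by
    rw [← htat]
    calc t * (t * a0 * t) * t = (t * t) * a0 * (t * t) := by group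
      _ = a0 := by rw [htt, one_mul, mul_one]
  have haa : a0 * a0 = 1 := by
    rw [ha0, ← map_mul, ← map_one N]; congr 1; decide +kernel
  have hcc : c4 * c4 = 1 := by
    rw [hc4, ← map_mul, ← map_one N]; congr 1; decide +kernel
  have hbb : b * b = 1 := by
    rw [hb, ← map_mul, ← map_one ι]; congr 1; decide +kernel
  have hti : t⁻¹ = t := inv_eq_of_mul_eq_one_left htt
  have hb' : ψ (1, swap 4 1) = b := by rw [hb, hι, swap_comm]
  rw [hb']
  rw [htat] at A1
  rw [hNt] at A2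
  -- conjugation by t
  have hconj : ∀ x : G, (t * x * t = 1 → x = 1) ∧ (t * x * t = s → x = s) := by
    intro x
    have hx : t * (t * x * t) * t = x := by
      calc t * (t * x * t) * t = (t * t) * x * (t * t) := by group
        _ = x := by rw [htt, one_mul, mul_one]
    constructor
    · intro he
      rw [← hx, he, mul_one, htt]
    · intro he
      rw [← hx, he, hts, mul_assoc, htt, mul_one]
  have hcomm2 : ((t * b * t) * c4 * (c4 * (t * b * t))⁻¹ = 1 ∨ (t * b * t) * c4 * (c4 * (t * b * t))⁻¹ = s) →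
      (b * a0 * (a0 * b)⁻¹ = 1 ∨ b * a0 * (a0 * b)⁻¹ = s) := by
    intro hx
    have he : t * (b * a0 * (a0 * b)⁻¹) * t = (t * b * t) * c4 * (c4 * (t * b * t))⁻¹ := by
      rw [← htat, mul_inv_rev, mul_inv_rev, mul_inv_rev, mul_inv_rev, mul_inv_rev, mul_inv_rev, hti]
      calc t * (b * a0 * (b⁻¹ * a0⁻¹)) * t = t * b * 1 * a0 * b⁻¹ * 1 * a0⁻¹ * t := by group
        _ = t * b * (t * t) * a0 * (b⁻¹) * (t * t) * a0⁻¹ * t := by rw [htt]
        _ = t * b * (t * t) * a0 * 1 * (b⁻¹) * (t * t) * a0⁻¹ * t := by rw [mul_one (t * b * (t * t) * a0)]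
        _ = t * b * (t * t) * a0 * (t * t) * (b⁻¹) * (t * t) * a0⁻¹ * t := by rw [htt]
        _ = _ := by group
    rw [← he] at hx
    rcases hx with hx | hx
    · exact Or.inl ((hconj _).1 hx)
    · exact Or.inr ((hconj _).2 hx)
  rcases A1 with ⟨p1, p2, p3, p4⟩ | ⟨p1, p2, p3, p4⟩ <;> rcases A2 with ⟨q1, q2, q3, q4⟩ | ⟨q1, q2, q3, q4⟩
  · exfalso
    exact comb hrr hss p2 (inv_sq hcc hbb hss q1) p3 p4
  · refine ⟨a0, Or.inl rfl, ?_⟩
    exact commOf hrs p1 (flip hss (hcomm2 q1))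
  · refine ⟨c4, Or.inr rfl, ?_⟩
    exact commOf hrs p1 (flip hss q1)
  · exfalso
    exact comb hrr hss p2 (inv_sq haa hbb hss (hcomm2 q1)) p3 p4

end H48.RU2
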